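import Cfsg.Agent.AI.Defs

/-!
A normal set of involutions with partners is the set of reflections of a dihedral group (see notes/AI.md).
-/

set_option autoImplicit false
set_option linter.unusedSectionVars false

namespace Cfsg.Agent.AI

open Cfsg Cfsg.Agent.H49 Subgroup

universe u

variable {G : Type u} [Group G] [Finite G]

/-- The dihedral relations. -/
structure DPre (x k : G) (n : ℕ) : Prop where
  x2 : x * x = 1
  ord : orderOf k = 2 ^ (n + 2)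
  inv : x * k * x⁻¹ = k⁻¹
  nm : x ∉ zpowers k

namespace DPre

variable {x k : G} {n : ℕ}

omit [Finite G] in
theorem cz (h : DPre x k n) (j : ℤ) : x * k ^ j * x⁻¹ = k ^ (-j) := by
  rw [← conj_zpow, h.inv, inv_zpow']

omit [Finite G] in
theorem sw (h : DPre x k n) (j : ℤ) : k ^ j * x = x * k ^ (-j) := by
  have := h.cz (-j)
  rw [neg_neg] at this
  rw [← this]; group

omit [Finite G] in
theorem xinv (h : DPre x k n) : x⁻¹ = x := inv_eq_of_mul_eq_one_right h.x2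

omit [Finite G] in
theorem zeq (h : DPre x k n) {a b : ℤ} : k ^ a = k ^ b ↔ (2 : ℤ) ^ (n + 2) ∣ b - a := by
  rw [zpow_eq_zpow_iff_modEq, h.ord, Int.modEq_iff_dvd]; norm_cast

omit [Finite G] in
theorem zeq1 (h : DPre x k n) {a : ℤ} : k ^ a = 1 ↔ (2 : ℤ) ^ (n + 2) ∣ a := by
  rw [← orderOf_dvd_iff_zpow_eq_one, h.ord]; norm_cast

omit [Finite G] in
theorem refl_sq (h : DPre x k n) (j : ℤ) : x * k ^ j * (x * k ^ j) = 1 := by
  calc x * k ^ j * (x * k ^ j) = x * (k ^ j * x) * k ^ j := by group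
    _ = 1 := by rw [h.sw, ← mul_assoc, h.x2]; group

omit [Finite G] in
theorem conj_refl (h : DPre x k n) (i j : ℤ) :
    k ^ i * (x * k ^ j) * (k ^ i)⁻¹ = x * k ^ (j - 2 * i) := by
  rw [← mul_assoc, h.sw]; group

omit [Finite G] in
theorem shift (h : DPre x k n) (j : ℤ) : DPre (x * k ^ j) k n := by
  refine ⟨h.refl_sq j, h.ord, ?_, fun h1 => h.nm ?_⟩
  · rw [← h.inv]; group
  · have := mul_mem h1 (inv_mem (zpow_mem_zpowers k j))
    rwa [mul_inv_cancel_right] at this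

omit [Finite G] in
theorem z_eq (k : G) (n : ℕ) : k ^ 2 ^ n = k ^ ((2 : ℤ) ^ n) := by
  rw [← zpow_natCast]; norm_cast

omit [Finite G] in
theorem z_ne (h : DPre x k n) : k ^ 2 ^ (n + 1) ≠ 1 := by
  intro e
  have := orderOf_dvd_of_pow_eq_one e
  rw [h.ord, Nat.pow_dvd_pow_iff_le_right one_lt_two] at this
  omega

omit [Finite G] in
theorem eq_of_sq (h : DPre x k n) {j : ℤ} (hj : k ^ j * k ^ j = 1) :
    k ^ j = 1 ∨ k ^ j = k ^ 2 ^ (n + 1) := by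
  rw [← zpow_add, h.zeq1] at hj
  obtain ⟨c, hc⟩ := hj
  have e : j = 2 ^ (n + 1) * c := by
    have : 2 * j = 2 * (2 ^ (n + 1) * c) := by rw [two_mul, hc]; ring
    omega
  rcases Int.even_or_odd' c with ⟨d, hd | hd⟩
  · left; rw [h.zeq1]; exact ⟨d, by rw [e, hd]; ring⟩
  · right; rw [z_eq, h.zeq]; exact ⟨-d, by rw [e, hd]; ring⟩

omit [Finite G] in
theorem odd_of_conj (h : DPre x k n) {g : G} {e : ℤ} (he : g * k * g⁻¹ = k ^ e) : Odd e := by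
  rw [← Int.not_even_iff_odd]
  rintro ⟨d, hd⟩
  have h1 : g * k ^ 2 ^ (n + 1) * g⁻¹ = 1 := by
    rw [z_eq, ← conj_zpow, he, ← zpow_mul, h.zeq1]; exact ⟨d, by rw [hd]; ring⟩
  exact h.z_ne (conj_eq_one_iff.1 h1)

omit [Finite G] in
theorem tw (h : DPre x k n) (j : ℤ) : Tw (k ^ j) :=
  ⟨n + 2, by rw [z_eq, ← zpow_mul, h.zeq1]; exact Dvd.intro_left _ rfl⟩

omit [Finite G] in
theorem comm_of_sq (h : DPre x k n) {j : ℤ} (hj : k ^ j * k ^ j = 1) : x * k ^ j = k ^ j * x := by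
  rw [h.sw, zpow_neg, inv_eq_of_mul_eq_one_right hj]

omit [Finite G] in
theorem partner (h : DPre x k n) {S : Subgroup G} {X : Set G} (hk : k ∈ S) (hx : x ∈ X)
    (h2 : ∀ x ∈ X, ∀ s ∈ S, s * x * s⁻¹ ∈ X) {v : G} (hv : Pa S X x v) :
    v = k ^ 2 ^ (n + 1) := by
  have h1 := h2 x hx _ (zpow_mem hk (-2 ^ n))
  have e := h.conj_refl (-2 ^ n) 0
  rw [zpow_zero, mul_one, show (0 : ℤ) - 2 * -2 ^ n = 2 ^ (n + 1) by ring] at e
  rw [e] at h1
  have h3 : k ^ (2 : ℤ) ^ (n + 1) * k ^ (2 : ℤ) ^ (n + 1) = 1 := by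
    rw [← zpow_add, h.zeq1]; exact ⟨1, by ring⟩
  rcases hv.near _ h1 (by rw [mul_assoc x, ← h.comm_of_sq h3]) with h4 | h4
  · exact absurd (by rwa [mul_eq_left, ← z_eq] at h4) h.z_ne
  · rw [z_eq]; exact (mul_left_cancel h4).symm

end DPre

omit [Finite G] in
theorem dpre_of {x y : G} (hx : x * x = 1) (hy : y * y = 1) (h : Tw (x * y))
    (hn : x * y ≠ y * x) : ∃ n, DPre x (x * y) n := by
  obtain ⟨m, hm⟩ := h
  obtain ⟨a, -, ha⟩ := (Nat.dvd_prime_pow Nat.prime_two).1 (orderOf_dvd_of_pow_eq_one hm)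
  have h1 : 2 ≤ a := by
    by_contra h1
    have h2 : (x * y) ^ 2 = 1 := by
      rw [← orderOf_dvd_iff_pow_eq_one, ha]
      exact (pow_dvd_pow 2 (by omega : a ≤ 1)).trans (by norm_num)
    rw [pow_two] at h2
    apply hn
    rw [← inv_eq_of_mul_eq_one_right h2, mul_inv_rev, inv_eq_of_mul_eq_one_right hx,
      inv_eq_of_mul_eq_one_right hy]
  obtain ⟨n, rfl⟩ := Nat.exists_eq_add_of_le' h1
  refine ⟨n, hx, ha, H8.conj_mul_inv hx hy, ?_⟩
  rintro ⟨j, hj⟩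
  have h2 : Commute ((x * y) ^ j) (x * y) := (Commute.refl _).zpow_left j
  simp only at hj
  rw [hj] at h2
  exact hn (mul_left_cancel (h2.eq.trans (mul_assoc _ _ _)))

theorem exists_dh {S : Subgroup G} (hS : IsPGroup 2 S) {X : Set G}
    (h1 : ∀ x ∈ X, x ∈ S ∧ x * x = 1) (h2 : ∀ x ∈ X, ∀ s ∈ S, s * x * s⁻¹ ∈ X)
    (h3 : ∀ x ∈ X, ∃ v, Pa S X x v) (h4 : ∃ x ∈ X, ∃ y ∈ X, x * y ≠ y * x) :
    ∃ x k n, Dh S X x k n := by
  have pre : ∀ x ∈ X, ∀ y ∈ X, x * y ≠ y * x → ∃ n, DPre x (x * y) n := fun x hx y hy hn =>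
    dpre_of (h1 x hx).2 (h1 y hy).2 (Tw.of_mem hS (mul_mem (h1 x hx).1 (h1 y hy).1)) hn
  obtain ⟨x₀, hx₀, y₀, hy₀, hn₀⟩ := h4
  obtain ⟨⟨x, y⟩, ⟨hx, hy⟩, hmax⟩ := Set.exists_max_image (X ×ˢ X)
    (fun p => orderOf (p.1 * p.2)) (Set.toFinite _) ⟨(x₀, y₀), hx₀, hy₀⟩
  simp only at hx hy
  have hmax' : ∀ a ∈ X, ∀ b ∈ X, orderOf (a * b) ≤ orderOf (x * y) := fun a ha b hb =>
    hmax (a, b) ⟨ha, hb⟩
  have x2 := (h1 x hx).2
  have y2 := (h1 y hy).2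
  have hn : x * y ≠ y * x := by
    intro e
    obtain ⟨m, hm⟩ := pre _ hx₀ _ hy₀ hn₀
    have h5 := hmax' _ hx₀ _ hy₀
    have h6 : orderOf (x * y) ≤ 2 := orderOf_le_of_pow_eq_one two_pos (by
      calc (x * y) ^ 2 = x * (y * x) * y := by rw [pow_two]; group
        _ = x * x * (y * y) := by rw [← e]; group
        _ = 1 := by rw [x2, y2, mul_one])
    rw [hm.ord] at h5
    have h7 : 2 ^ 2 ≤ 2 ^ (m + 2) := Nat.pow_le_pow_right two_pos (by omega)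
    omega
  obtain ⟨n, h⟩ := pre x hx y hy hn
  have hD : ∀ d ∈ closure ({x, y} : Set G), ∃ j : ℤ, d = (x * y) ^ j ∨ d = x * (x * y) ^ j :=
    fun d hd => H8.mem_closure_pair x2 y2 hd
  have hkD : x * y ∈ closure ({x, y} : Set G) := H8.mul_mem_closure_pair x y
  have hxD : x ∈ closure ({x, y} : Set G) := subset_closure (by simp)
  have hyD : y ∈ closure ({x, y} : Set G) := subset_closure (by simp)
  have hcj : ∀ u : G, u * x * u⁻¹ ∈ closure ({x, y} : Set G) →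
      u * y * u⁻¹ ∈ closure ({x, y} : Set G) → u ∈ 𝒩(closure ({x, y} : Set G)) := by
    intro u a1 a2
    refine mem_norm_of_cj_le (cj_le_iff.2 ((closure_le _).2 ?_))
    rintro w (rfl | rfl)
    · exact mem_cj.2 (by rwa [inv_inv])
    · exact mem_cj.2 (by rwa [inv_inv])
  have exy : x * (x * y) ^ (1 : ℤ) = y := by rw [zpow_one, ← mul_assoc, x2, one_mul]
  have hxS := (h1 x hx).1
  have hyS := (h1 y hy).1
  have hkS : x * y ∈ S := mul_mem hxS hyS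
  generalize closure ({x, y} : Set G) = D at *
  generalize x * y = k at *
  have hX : ∀ j : ℤ, x * k ^ j ∈ X := by
    intro j
    rcases Int.even_or_odd' j with ⟨i, hi | hi⟩
    · have := h2 x hx _ (zpow_mem hkS (-i))
      have e := h.conj_refl (-i) 0
      rw [zpow_zero, mul_one] at e
      rwa [e, show (0 : ℤ) - 2 * -i = j by rw [hi]; ring] at this
    · have := h2 y hy _ (zpow_mem hkS (-i))
      rwa [← exy, h.conj_refl, show (1 : ℤ) - 2 * -i = j by rw [hi]; ring] at this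
  have hpa : ∀ j : ℤ, ∀ v, Pa S X (x * k ^ j) v → v = k ^ 2 ^ (n + 1) := fun j v hv =>
    (h.shift j).partner hkS (hX j) h2 hv
  have claim : ∀ τ ∈ X, τ ∈ 𝒩(D) → τ ∈ D := by
    intro τ hτ hN
    by_contra hnD
    have τ2 := (h1 τ hτ).2
    have τi : τ⁻¹ = τ := inv_eq_of_mul_eq_one_right τ2
    have nc : ∀ j : ℤ, x * k ^ j * τ ≠ τ * (x * k ^ j) := by
      intro j e
      obtain ⟨v, hv⟩ := h3 _ (hX j)
      apply hnD
      rcases hv.near τ hτ e with e1 | e1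
      · rw [e1]; exact mul_mem hxD (zpow_mem hkD _)
      · rw [e1, hpa j v hv]; exact mul_mem (mul_mem hxD (zpow_mem hkD _)) (pow_mem hkD _)
    have nc0 : x * τ ≠ τ * x := by simpa using nc 0
    obtain ⟨v, hv⟩ := h3 τ hτ
    obtain ⟨m, hm⟩ := pre x hx τ hτ nc0
    have hvz : v = k ^ 2 ^ (n + 1) := by
      obtain ⟨w, hw⟩ := h3 x hx
      have hS' : x * τ ∈ S := mul_mem hxS (h1 τ hτ).1
      have a1 := hm.shift 1
      rw [zpow_one, ← mul_assoc, x2, one_mul] at a1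
      rw [a1.partner hS' hτ h2 hv, ← hm.partner hS' hx h2 hw, h.partner hkS hx h2 hw]
    obtain ⟨e, he⟩ : ∃ e : ℤ, τ * k * τ⁻¹ = k ^ e := by
      obtain ⟨e, he | he⟩ := hD _ ((mem_normalizer_iff.1 hN k).1 hkD)
      · exact ⟨e, he⟩
      · have a1 := h.refl_sq e
        rw [← he, show τ * k * τ⁻¹ * (τ * k * τ⁻¹) = τ * k ^ (2 : ℤ) * τ⁻¹ by
          rw [zpow_two]; group, conj_eq_one_iff, h.zeq1] at a1
        have a2 := Int.le_of_dvd two_pos a1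
        have a3 : (2 : ℤ) ^ 2 ≤ 2 ^ (n + 2) := pow_le_pow_right₀ one_le_two (by omega)
        omega
    have he' : ∀ j : ℤ, τ * k ^ j * τ⁻¹ = k ^ (e * j) := fun j => by
      rw [← conj_zpow, he, zpow_mul]
    obtain ⟨i, hi⟩ : ∃ i : ℤ, τ * x * τ⁻¹ = x * k ^ i := by
      obtain ⟨i, hi | hi⟩ := hD _ ((mem_normalizer_iff.1 hN x).1 hxD)
      · refine absurd ⟨e * i, ?_⟩ h.nm
        simp only
        rw [← he', ← hi, τi]
        calc τ * (τ * x * τ) * τ = τ * τ * x * (τ * τ) := by group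
          _ = x := by rw [τ2, one_mul, mul_one]
      · exact ⟨i, hi⟩
    obtain ⟨i', hi'⟩ : 2 ∣ i := by
      have a1 := hmax' x hx τ hτ
      rw [hm.ord, h.ord] at a1
      have a2 : m + 2 ≤ n + 2 := (Nat.pow_le_pow_iff_right one_lt_two).1 a1
      have a3 : (x * τ) ^ 2 ^ (n + 2) = 1 := by
        rw [← orderOf_dvd_iff_pow_eq_one, hm.ord]; exact pow_dvd_pow 2 a2
      have a4 : (x * τ) ^ 2 = k ^ i := by
        calc (x * τ) ^ 2 = x * (τ * x * τ⁻¹) := by rw [τi, pow_two]; group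
          _ = k ^ i := by rw [hi, ← mul_assoc, x2, one_mul]
      rw [pow_succ', pow_mul, a4, DPre.z_eq, ← zpow_mul, h.zeq1, pow_succ'] at a3
      exact Int.dvd_of_mul_dvd_mul_right (by positivity) a3
    obtain ⟨w, hw⟩ := h.odd_of_conj he
    have hwo : Odd w := by
      rw [← Int.not_even_iff_odd]
      rintro ⟨d, hd⟩
      refine hv.nsq (k ^ (2 : ℤ) ^ n) (zpow_mem hkS _) ?_ ?_
      · have a1 : k ^ (e * 2 ^ n) = k ^ (2 : ℤ) ^ n := by
          rw [h.zeq]; exact ⟨-d, by rw [hw, hd]; ring⟩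
        have a2 := he' (2 ^ n)
        rw [a1] at a2
        exact (mul_inv_eq_iff_eq_mul.1 a2).symm
      · rw [hvz, DPre.z_eq, ← zpow_add]; congr 1; ring
    obtain ⟨a, b, hab⟩ : IsCoprime w (2 ^ (n + 2)) :=
      (Int.isCoprime_two_right.2 hwo).pow_right
    apply nc (-(i' * a))
    have a1 : k ^ (i + e * -(i' * a)) = k ^ (-(i' * a)) := by
      rw [h.zeq]
      exact ⟨-(2 * i' * b), by rw [hi', hw]; linear_combination (2 * i') * hab⟩
    have a2 : τ * (x * k ^ (-(i' * a))) * τ⁻¹ = x * k ^ (-(i' * a)) := by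
      calc τ * (x * k ^ (-(i' * a))) * τ⁻¹ = τ * x * τ⁻¹ * (τ * k ^ (-(i' * a)) * τ⁻¹) := by group
        _ = x * k ^ (-(i' * a)) := by rw [hi, he', mul_assoc, ← zpow_add, a1]
    exact (mul_inv_eq_iff_eq_mul.1 a2).symm
  have hN : S ⊓ 𝒩(D) = S := by
    refine eq_of_inf_norm_le_of_nilpotent hS.isNilpotent inf_le_left ?_
    rintro u ⟨hu, hu'⟩
    refine ⟨hu, hcj u (claim _ (h2 x hx u hu) ?_) (claim _ (h2 y hy u hu) ?_)⟩
    · exact ((mem_normalizer_iff.1 hu' x).1 ⟨hxS, le_normalizer hxD⟩).2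
    · exact ((mem_normalizer_iff.1 hu' y).1 ⟨hyS, le_normalizer hyD⟩).2
  have hmem : ∀ τ ∈ X, ∃ j : ℤ, τ = x * k ^ j := by
    intro τ hτ
    obtain ⟨j, hj | hj⟩ := hD τ (claim τ hτ (hN.ge (h1 τ hτ).1).2)
    · exfalso
      obtain ⟨v, hv⟩ := h3 τ hτ
      have τ2 := (h1 τ hτ).2
      have key : ∀ i : ℤ, x * k ^ i = τ * v := by
        intro i
        have a1 := (h.shift i).comm_of_sq (hj ▸ τ2)
        rcases hv.near _ (hX i) (by rw [hj]; exact a1.symm) with a2 | a2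
        · exact absurd ⟨j, by simp only; rw [a2, hj]⟩ (h.shift i).nm
        · exact a2
      have a3 := mul_left_cancel ((key 0).trans (key 1).symm)
      rw [h.zeq] at a3
      have a2 := Int.le_of_dvd (by norm_num) a3
      have a3 : (2 : ℤ) ^ 2 ≤ 2 ^ (n + 2) := pow_le_pow_right₀ one_le_two (by omega)
      omega
    · exact ⟨j, hj⟩
  refine ⟨x, k, n, hxS, hkS, x2, h.ord, h.inv, h.nm, fun w => ⟨hmem w, ?_⟩, fun w hw v hv => ?_⟩
  · rintro ⟨j, rfl⟩; exact hX j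
  · obtain ⟨j, rfl⟩ := hmem w hw
    exact hpa j v hv

namespace Dh

variable {S : Subgroup G} {X : Set G} {x k : G} {n : ℕ}

omit [Finite G] in
theorem pre (h : Dh S X x k n) : DPre x k n := ⟨h.x2, h.ord, h.inv, h.nm⟩

omit [Finite G] in
theorem xX (h : Dh S X x k n) : x ∈ X := (h.mem x).2 ⟨0, by simp⟩

/-- Any reflection may serve as the base point. -/
theorem shift (h : Dh S X x k n) {y : G} (hy : y ∈ X) : Dh S X y k n := by
  obtain ⟨j, rfl⟩ := (h.mem y).1 hy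
  have h1 := h.pre.shift j
  refine ⟨mul_mem h.xS (zpow_mem h.kS j), h.kS, h1.x2, h1.ord, h1.inv, h1.nm, fun w => ?_, h.pa⟩
  rw [h.mem]
  constructor
  · rintro ⟨i, rfl⟩; exact ⟨i - j, by group⟩
  · rintro ⟨i, rfl⟩; exact ⟨j + i, by group⟩

/-- An element normalizing `X` normalizes `⟨k⟩`, with an odd exponent. -/
theorem conj_k (h : Dh S X x k n) {g : G} (hg : ∀ y ∈ X, g * y * g⁻¹ ∈ X) :
    ∃ e : ℤ, Odd e ∧ g * k * g⁻¹ = k ^ e := by
  obtain ⟨a, ha⟩ := (h.mem _).1 (hg x h.xX)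
  obtain ⟨b, hb⟩ := (h.mem _).1 (hg _ ((h.mem _).2 ⟨1, rfl⟩))
  have e : g * k * g⁻¹ = k ^ (b - a) := by
    calc g * k * g⁻¹ = (g * x * g⁻¹)⁻¹ * (g * (x * k ^ (1 : ℤ)) * g⁻¹) := by group
      _ = k ^ (b - a) := by rw [ha, hb]; group
  exact ⟨b - a, h.pre.odd_of_conj e, e⟩

/-- The involution of `⟨k⟩`. -/
theorem eq_of_sq (h : Dh S X x k n) {j : ℤ} (hj : k ^ j * k ^ j = 1) :
    k ^ j = 1 ∨ k ^ j = k ^ 2 ^ (n + 1) := h.pre.eq_of_sq hj

theorem exists_sqrt (h : Dh S X x k n) {j : ℤ} (h1 : k ^ j ≠ 1) (h2 : k ^ j ≠ k ^ 2 ^ (n + 1)) :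
    ∃ i : ℕ, (k ^ j) ^ i * (k ^ j) ^ i = k ^ 2 ^ (n + 1) := by
  obtain ⟨m, hm⟩ := h.pre.tw j
  obtain ⟨a, -, ha⟩ := (Nat.dvd_prime_pow Nat.prime_two).1 (orderOf_dvd_of_pow_eq_one hm)
  have h3 : 2 ≤ a := by
    by_contra h3
    have h4 : (k ^ j) ^ 2 = 1 := by
      rw [← orderOf_dvd_iff_pow_eq_one, ha]
      exact (pow_dvd_pow 2 (by omega : a ≤ 1)).trans (by norm_num)
    rw [pow_two] at h4
    exact (h.eq_of_sq h4).elim h1 h2
  obtain ⟨b, rfl⟩ := Nat.exists_eq_add_of_le' h3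
  refine ⟨2 ^ b, ?_⟩
  have e : (k ^ j) ^ 2 ^ b * (k ^ j) ^ 2 ^ b = (k ^ j) ^ 2 ^ (b + 1) := by
    rw [← pow_add]; congr 1; ring
  have e2 : (k ^ j) ^ 2 ^ (b + 1) = k ^ (j * 2 ^ (b + 1)) := by rw [DPre.z_eq, ← zpow_mul]
  have h5 : k ^ (j * 2 ^ (b + 1)) * k ^ (j * 2 ^ (b + 1)) = 1 := by
    rw [← e2, ← pow_add, ← orderOf_dvd_iff_pow_eq_one, ha]; exact ⟨1, by ring⟩
  rcases h.eq_of_sq h5 with h6 | h6
  · rw [← e2, ← orderOf_dvd_iff_pow_eq_one, ha, Nat.pow_dvd_pow_iff_le_right one_lt_two] at h6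
    omega
  · rw [e, e2, h6]

theorem norm_k (h : Dh S X x k n) {g : G} (hg : ∀ y ∈ X, g * y * g⁻¹ ∈ X) :
    g ∈ 𝒩(zpowers k) := by
  obtain ⟨e, -, he⟩ := h.conj_k hg
  refine mem_norm_of_cj_le ?_
  rw [cj_zpowers, he, zpowers_le]
  exact zpow_mem_zpowers k e

/-- Elements of odd order normalizing `X` centralize the dihedral group. -/
theorem cent_of_odd (h : Dh S X x k n) {g : G} (hg : ∀ y ∈ X, g * y * g⁻¹ ∈ X)
    (ho : Odd (orderOf g)) : g * x = x * g ∧ g * k = k * g := by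
  have hN := h.norm_k hg
  have h1 : g ∈ 𝒞(zpowers k) := by
    refine cent_of_omega (abelian_of_cyclic inferInstance)
      (Tw.isPGroup (by simpa using h.pre.tw 1)) hN ho (by rw [pow_orderOf_eq_one]; exact one_mem _) ?_
    rintro _ ⟨j, rfl⟩ hj
    simp only at hj ⊢
    rcases h.eq_of_sq hj with e | e
    · rw [e, mul_one, one_mul]
    · obtain ⟨i, hi⟩ := (mem_normalizer_iff.1 hN _).1 (zpow_mem_zpowers k j)
      simp only at hi
      have h2 : k ^ i * k ^ i = 1 := by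
        rw [hi, show g * k ^ j * g⁻¹ * (g * k ^ j * g⁻¹) = g * (k ^ j * k ^ j) * g⁻¹ by group, hj]
        group
      rcases h.eq_of_sq h2 with e' | e'
      · rw [hi, conj_eq_one_iff, e] at e'
        exact absurd e' h.pre.z_ne
      · rw [e', ← e] at hi
        exact mul_inv_eq_iff_eq_mul.1 hi.symm
  obtain ⟨a, ha⟩ := (h.mem _).1 (hg x h.xX)
  exact ⟨fix_of_odd ho (by rw [pow_orderOf_eq_one, one_mul, mul_one]) ha
    (h1 _ (zpow_mem_zpowers k a)).symm (h.pre.tw a), (h1 k (mem_zpowers k)).symm⟩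

/-- The elements that keep the class of `x` under `⟨k⟩`. -/
theorem mem_sup_iff (h : Dh S X x k n) (hX : ∀ y ∈ X, ∀ s ∈ S, s * y * s⁻¹ ∈ X) {s : G}
    (hs : s ∈ S) :
    s ∈ zpowers k ⊔ (S ⊓ 𝒞[x]) ↔ ∃ j : ℤ, s * x * s⁻¹ = x * k ^ (2 * j) := by
  constructor
  · intro h1
    obtain ⟨_, ⟨i, rfl⟩, b, hb, rfl⟩ := (mem_sup_of_norm_left (K := S ⊓ 𝒞[x])
      (fun c hc => h.norm_k fun y hy => hX y hy c hc.1)).1 h1
    have e := h.pre.conj_refl i 0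
    have e2 : b * x = x * b := mem_cent1.1 hb.2
    refine ⟨-i, ?_⟩
    simp only
    calc k ^ i * b * x * (k ^ i * b)⁻¹ = k ^ i * (b * x * b⁻¹ * k ^ (0 : ℤ)) * (k ^ i)⁻¹ := by group
      _ = x * k ^ (2 * -i) := by rw [e2, mul_inv_cancel_right, e]; congr 2; ring
  · rintro ⟨j, hj⟩
    have e : s = (k ^ j)⁻¹ * (k ^ j * s) := by group
    rw [e]
    refine mul_mem (mem_sup_left (inv_mem (zpow_mem_zpowers k j)))
      (mem_sup_right ⟨mul_mem (zpow_mem h.kS j) hs, mem_cent1.2 ?_⟩)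
    refine mul_inv_eq_iff_eq_mul.1 ?_
    calc k ^ j * s * x * (k ^ j * s)⁻¹ = k ^ j * (s * x * s⁻¹) * (k ^ j)⁻¹ := by group
      _ = x := by rw [hj, h.pre.conj_refl, sub_self, zpow_zero, mul_one]

theorem mul_mem_of_not (h : Dh S X x k n) (hX : ∀ y ∈ X, ∀ s ∈ S, s * y * s⁻¹ ∈ X) {a b : G}
    (ha : a ∈ S) (hb : b ∈ S) (ha' : a ∉ zpowers k ⊔ (S ⊓ 𝒞[x]))
    (hb' : b ∉ zpowers k ⊔ (S ⊓ 𝒞[x])) : a * b ∈ zpowers k ⊔ (S ⊓ 𝒞[x]) := by
  have key : ∀ s ∈ S, s ∉ zpowers k ⊔ (S ⊓ 𝒞[x]) →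
      ∃ j : ℤ, s * x * s⁻¹ = x * k ^ (2 * j + 1) := by
    intro s hs hs'
    obtain ⟨i, hi⟩ := (h.mem _).1 (hX x h.xX s hs)
    rcases Int.even_or_odd' i with ⟨j, hj | hj⟩
    · exact absurd ((h.mem_sup_iff hX hs).2 ⟨j, by rw [hi, hj]⟩) hs'
    · exact ⟨j, by rw [hi, hj]⟩
  obtain ⟨i, hi⟩ := key a ha ha'
  obtain ⟨j, hj⟩ := key b hb hb'
  obtain ⟨e, ⟨w, hw⟩, he⟩ := h.conj_k fun y hy => hX y hy a ha
  refine (h.mem_sup_iff hX (mul_mem ha hb)).2 ⟨i + 1 + w + j + 2 * w * j, ?_⟩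
  calc a * b * x * (a * b)⁻¹ = a * (b * x * b⁻¹) * a⁻¹ := by group
    _ = a * x * a⁻¹ * (a * k * a⁻¹) ^ (2 * j + 1) := by rw [hj, conj_zpow]; group
    _ = _ := by rw [hi, he, ← zpow_mul, mul_assoc, ← zpow_add, hw]; congr 2; ring

/-- Commutators, and centralizers of reflections, keep the class of `x`. -/
theorem comm_mem (h : Dh S X x k n) (hX : ∀ y ∈ X, ∀ s ∈ S, s * y * s⁻¹ ∈ X) {a s : G}
    (ha : a ∈ S) (hs : s ∈ S) : a⁻¹ * (s * a * s⁻¹) ∈ zpowers k ⊔ (S ⊓ 𝒞[x]) := by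
  have key := @h.mul_mem_of_not _ _ _ _ _ _ _ _ hX
  generalize zpowers k ⊔ (S ⊓ 𝒞[x]) = Y at *
  by_cases h1 : a ∈ Y <;> by_cases h2 : s ∈ Y
  · exact mul_mem (inv_mem h1) (mul_mem (mul_mem h2 h1) (inv_mem h2))
  · exact mul_mem (inv_mem h1) (key (mul_mem hs ha) (inv_mem hs)
      (by rwa [mul_mem_cancel_right h1]) (by rwa [inv_mem_iff]))
  · exact key (inv_mem ha) (mul_mem (mul_mem hs ha) (inv_mem hs)) (by rwa [inv_mem_iff])
      (by rwa [mul_mem_cancel_right (inv_mem h2), mul_mem_cancel_left h2])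
  · have := mul_mem (key (inv_mem ha) hs (by rwa [inv_mem_iff]) h2)
      (key ha (inv_mem hs) h1 (by rwa [inv_mem_iff]))
    rwa [show a⁻¹ * s * (a * s⁻¹) = a⁻¹ * (s * a * s⁻¹) by group] at this

theorem cent_le (h : Dh S X x k n) (hX : ∀ y ∈ X, ∀ s ∈ S, s * y * s⁻¹ ∈ X) {y : G} (hy : y ∈ X) :
    S ⊓ 𝒞[y] ≤ zpowers k ⊔ (S ⊓ 𝒞[x]) := by
  rintro s ⟨hs, hs'⟩
  obtain ⟨j, rfl⟩ := (h.mem y).1 hy
  obtain ⟨i, hi⟩ := (h.mem _).1 (hX x h.xX s hs)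
  obtain ⟨e, ⟨w, hw⟩, he⟩ := h.conj_k fun y hy => hX y hy s hs
  have e1 : s * (x * k ^ j) = x * k ^ j * s := mem_cent1.1 hs'
  have e2 : x * k ^ (i + e * j) = x * k ^ j := by
    calc x * k ^ (i + e * j) = s * x * s⁻¹ * (s * k * s⁻¹) ^ j := by
          rw [hi, he, ← zpow_mul, mul_assoc, ← zpow_add]
      _ = s * (x * k ^ j) * s⁻¹ := by rw [conj_zpow]; group
      _ = x * k ^ j := by rw [e1, mul_inv_cancel_right]
  obtain ⟨c, hc⟩ := h.pre.zeq.1 (mul_left_cancel e2)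
  refine (h.mem_sup_iff hX hs).2 ⟨-(w * j) - 2 ^ (n + 1) * c, ?_⟩
  rw [hi]; congr 2
  rw [hw] at hc
  linear_combination -hc

end Dh

end Cfsg.Agent.AI
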