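import Cfsg.Agent.AI.Defs

/-!
TI Sylow 2-subgroups acting on an abelian 2-group: basic facts (see notes/AI.md).
-/

set_option autoImplicit false
set_option linter.unusedSectionVars false

namespace Cfsg.Agent.AI

open Cfsg Cfsg.Agent.H49 Subgroup

universe u

variable {G : Type u} [Group G] [Finite G]

namespace FT

variable {V H T : Subgroup G}

theorem conj (h : FT V H T) {g : G} (hg : g ∈ H) : FT V H (cj g T) := by
  refine ⟨h.ab, h.two, h.norm, h.faith, h.syl.cj_of_mem hg, fun k hk x hx x1 h1 => ?_,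
    fun h1 => h.nn fun k hk => ?_⟩
  · rw [← cj_normalizer, mem_cj]
    refine h.ti _ (mul_mem (mul_mem (inv_mem hg) hk) hg) _ (mem_cj.1 hx) (fun e => x1 ?_) ?_
    · calc x = g * (g⁻¹ * x * g) * g⁻¹ := by group
        _ = 1 := by rw [e]; group
    · convert mem_cj.1 h1 using 1; group
  · have := h1 (mul_mem (mul_mem hg hk) (inv_mem hg))
    rwa [← cj_normalizer, conj_mem_cj] at this

theorem ne_bot (h : FT V H T) : T ≠ ⊥ := fun e => h.nn (by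
  rw [e, le_norm_iff]
  intro a _ x hx
  rw [mem_bot.1 hx]; simp)

theorem pgrp (h : FT V H T) : IsPGroup 2 T := h.syl.pi.isPGroup Nat.prime_two

/-- A 2-subgroup of `H` that meets `T` lies in `T`. -/
theorem le_of_mem (h : FT V H T) {P : Subgroup G} (hP : IsPGroup 2 P) (hPH : P ≤ H) {x : G}
    (hx : x ∈ T) (h1 : x ≠ 1) (hxP : x ∈ P) : P ≤ T := by
  obtain ⟨g, hg, e⟩ := sylowOf_Jsub h.syl hPH (isPi_of_isPGroup Nat.prime_two hP)
  have := h.ti g⁻¹ (inv_mem hg) x hx h1 (by simpa using mem_cj.1 (e hxP))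
  rwa [cj_eq_of_mem_norm (inv_mem_iff.1 this)] at e

theorem inf_cj (h : FT V H T) {g : G} (hg : g ∈ H) (hn : g ∉ 𝒩(T)) : T ⊓ cj g T = ⊥ := by
  rw [eq_bot_iff]
  rintro x ⟨h1, h2⟩
  by_contra x1
  exact hn (inv_mem_iff.1 (h.ti g⁻¹ (inv_mem hg) x h1 x1 (by simpa using mem_cj.1 h2)))

/-- A 2-element of `H` that normalizes `T` lies in `T`. -/
theorem mem_of_norm (h : FT V H T) {t : G} (ht : t ∈ H) (h2 : Tw t) (hn : t ∈ 𝒩(T)) : t ∈ T :=
  h.syl.le_of_norm (zpowers_le.2 ht) (isPi_of_isPGroup Nat.prime_two h2.isPGroup)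
    (.inl (zpowers_le.2 hn)) (mem_zpowers t)

theorem exists_cj (h : FT V H T) {t : G} (ht : t ∈ H) (h2 : Tw t) : ∃ g ∈ H, t ∈ cj g T := by
  obtain ⟨g, hg, e⟩ := sylowOf_Jsub h.syl (zpowers_le.2 ht)
    (isPi_of_isPGroup Nat.prime_two h2.isPGroup)
  exact ⟨g, hg, e (mem_zpowers t)⟩

theorem mem_of_commute (h : FT V H T) {t z : G} (ht : t ∈ T) (t1 : t ≠ 1) (t2 : t * t = 1)
    (hz : z ∈ H) (z2 : z * z = 1) (hc : Commute z t) : z ∈ T :=
  h.le_of_mem (H8.isPGroup_closure_pair_of_commute z2 t2 hc)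
    ((closure_le _).2 (by rintro _ (rfl | rfl); exacts [hz, h.syl.le ht])) ht t1
    (subset_closure (by simp)) (subset_closure (by simp))

/-- Involutions of different Sylow subgroups have a product of odd order. -/
theorem odd (h : FT V H T) {g t t' : G} (hg : g ∈ H) (hn : g ∉ 𝒩(T)) (ht : t ∈ T) (t1 : t ≠ 1)
    (t2 : t * t = 1) (ht' : t' ∈ cj g T) (t1' : t' ≠ 1) (t2' : t' * t' = 1) :
    Odd (orderOf (t * t')) ∧ t * t' ∉ 𝒞(V) := by
  have hH : t * t' ∈ H := mul_mem (h.syl.le ht) ((h.conj hg).syl.le ht')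
  have hb : ∀ x ∈ T, x ∈ cj g T → x = 1 := fun x h1 h2 =>
    mem_bot.1 (h.inf_cj hg hn ▸ mem_inf.2 ⟨h1, h2⟩)
  refine ⟨Nat.not_even_iff_odd.1 fun he => ?_, fun hc => ?_⟩
  · obtain ⟨h1, h2, h3⟩ := H8.central_involution t2 t2' he
    have z2 := H8.mul_self_of_orderOf_two h1
    exact H8.ne_one_of_orderOf_two h1 (hb _ (h.mem_of_commute ht t1 t2 (pow_mem hH _) z2 h2)
      ((h.conj hg).mem_of_commute ht' t1' t2' (pow_mem hH _) z2 h3))
  · have e : t * t' = 1 := mem_bot.1 (h.faith ▸ mem_inf.2 ⟨hH, hc⟩)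
    have : t' = t := by rw [eq_inv_of_mul_eq_one_right e, inv_eq_of_mul_eq_one_right t2]
    exact t1 (hb t ht (this ▸ ht'))

theorem exists_out (h : FT V H T) : ∃ g ∈ H, g ∉ 𝒩(T) := SetLike.not_le_iff_exists.1 h.nn

theorem odd_conj (h : FT V H T) {g s t : G} (hg : g ∈ H) (hn : g ∉ 𝒩(T)) (hs : s ∈ T) (s1 : s ≠ 1)
    (s2 : s * s = 1) (ht : t ∈ T) (t1 : t ≠ 1) (t2 : t * t = 1) :
    Odd (orderOf (t * (g * s * g⁻¹))) ∧ t * (g * s * g⁻¹) ∉ 𝒞(V) :=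
  h.odd hg hn ht t1 t2 (conj_mem_cj.2 hs) (fun e => s1 (conj_eq_one_iff.1 e)) (by
    rw [conj_mul, s2, mul_one, mul_inv_cancel])

theorem trans (h : FT V H T) {s t : G} (hs : s ∈ T) (s1 : s ≠ 1) (s2 : s * s = 1) (ht : t ∈ T)
    (t1 : t ≠ 1) (t2 : t * t = 1) : ∃ n ∈ H, n ∈ 𝒩(T) ∧ n * s * n⁻¹ = t := by
  obtain ⟨g, hg, hn⟩ := h.exists_out
  obtain ⟨d, hd, e⟩ := H8.exists_conj_of_odd t2 (by rw [conj_mul, s2, mul_one, mul_inv_cancel])
    (h.odd_conj hg hn hs s1 s2 ht t1 t2).1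
  have hdH : d ∈ H := zpowers_le.2 (mul_mem (h.syl.le ht)
    (mul_mem (mul_mem hg (h.syl.le hs)) (inv_mem hg))) hd
  have e2 : d⁻¹ * g * s * (d⁻¹ * g)⁻¹ = t := by
    calc d⁻¹ * g * s * (d⁻¹ * g)⁻¹ = d⁻¹ * (g * s * g⁻¹) * d := by group
      _ = t := by rw [← e]; group
  exact ⟨_, mul_mem (inv_mem hdH) hg, h.ti _ (mul_mem (inv_mem hdH) hg) s hs s1 (e2 ▸ ht), e2⟩

theorem Om_ne_bot (h : FT V H T) : Om T ≠ ⊥ := by
  have : Fact (Nat.Prime 2) := ⟨Nat.prime_two⟩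
  have h1 := center_ne_bot_of_nilpotent h.pgrp.isNilpotent h.ne_bot
  have h2 : IsPGroup 2 ↥(T ⊓ 𝒞(T)) := h.pgrp.to_inf_left
  have := (nontrivial_iff_ne_bot _).2 h1
  obtain ⟨k, hk, e⟩ := h2.nontrivial_iff_card.1 this
  obtain ⟨z, hz, ho⟩ := H8.exists_involution_of_even (T ⊓ 𝒞(T))
    (by rw [e]; exact (Nat.even_pow' hk.ne').2 even_two)
  intro e0
  exact H8.ne_one_of_orderOf_two ho (mem_bot.1 (e0 ▸ AI.mem_Om.2
    ⟨hz.1, hz.2, H8.mul_self_of_orderOf_two ho⟩))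

theorem mem_Om (h : FT V H T) {t : G} (ht : t ∈ T) (t2 : t * t = 1) : t ∈ Om T := by
  by_cases t1 : t = 1
  · rw [t1]; exact one_mem _
  obtain ⟨⟨z, hz⟩, z1⟩ := (ne_bot_iff_exists_ne_one).1 h.Om_ne_bot
  obtain ⟨n, -, hn, rfl⟩ := h.trans hz.1 (fun e => z1 (Subtype.ext e)) hz.2.2 ht t1 t2
  rw [← cj_eq_of_mem_norm hn, ← cj_Om]
  exact conj_mem_cj.2 hz

/-- A nontrivial subgroup of `Om T` invariant under `N_H(T)` is `Om T`. -/
theorem eq_Om (h : FT V H T) {A : Subgroup G} (hA : A ≤ Om T) (hne : A ≠ ⊥)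
    (hn : H ⊓ 𝒩(T) ≤ 𝒩(A)) : A = Om T := by
  refine le_antisymm hA fun t ht => ?_
  by_cases t1 : t = 1
  · rw [t1]; exact one_mem _
  obtain ⟨⟨a, ha⟩, a1⟩ := (ne_bot_iff_exists_ne_one).1 hne
  obtain ⟨n, h1, h2, rfl⟩ := h.trans (hA ha).1 (fun e => a1 (Subtype.ext e)) (hA ha).2.2 ht.1 t1
    ht.2.2
  exact conj_mem_of_norm hn ⟨h1, h2⟩ ha

theorem comm (h : FT V H T) {a b : G} (ha : a ∈ V) (hb : b ∈ V) : Commute a b :=
  abelian_iff.1 h.ab hb a ha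

/-- No involution acts trivially modulo squares. -/
theorem not_sq (h : FT V H T) {t : G} (ht : t ∈ T) (t1 : t ≠ 1) (t2 : t * t = 1)
    (hs : ∀ a ∈ V, ∃ c ∈ V, t * a * t⁻¹ = a * (c * c)) : False := by
  obtain ⟨g, hg, hn⟩ := h.exists_out
  obtain ⟨h1, h2⟩ := h.odd_conj hg hn ht t1 t2 ht t1 t2
  refine h2 (cent_of_sq h.ab h.two h1 (by rw [pow_orderOf_eq_one]; exact one_mem _) fun a ha => ?_)
  obtain ⟨c, hc, e⟩ := hs _ (conj_mem_of_norm' h.norm hg ha)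
  obtain ⟨d, hd, e'⟩ := hs a ha
  have hc' : t * (g * c * g⁻¹) * t⁻¹ ∈ V :=
    conj_mem_of_norm h.norm (h.syl.le ht) (conj_mem_of_norm h.norm hg hc)
  refine ⟨d * (t * (g * c * g⁻¹) * t⁻¹), mul_mem hd hc', ?_⟩
  calc t * (g * t * g⁻¹) * a * (t * (g * t * g⁻¹))⁻¹
      = t * g * (t * (g⁻¹ * a * g) * t⁻¹) * g⁻¹ * t⁻¹ := by group
    _ = t * a * t⁻¹ * (t * (g * c * g⁻¹) * t⁻¹ * (t * (g * c * g⁻¹) * t⁻¹)) := by rw [e]; group
    _ = _ := by rw [e', (h.comm hd hc').symm.mul_mul_mul_comm, mul_assoc a]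

/-- Quadratic subgroups are elementary. -/
theorem le_Om (h : FT V H T) {B : Subgroup G} (hB : B ≤ T) (hq : ⁅⁅V, B⁆, B⁆ = ⊥) :
    B ≤ Om T := by
  intro b hb
  refine h.mem_Om (hB hb) (by_contra fun b2 => ?_)
  obtain ⟨c, hc, c1, c2⟩ : ∃ c ∈ B, c * c ≠ 1 ∧ c * c * (c * c) = 1 := by
    obtain ⟨k, hk⟩ := Tw.of_mem h.pgrp (hB hb)
    induction k generalizing b with
    | zero => exact absurd (by rw [pow_zero, pow_one] at hk; rw [hk, mul_one]) b2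
    | succ k ih =>
      by_cases e : b * b * (b * b) = 1
      · exact ⟨b, hb, b2, e⟩
      · exact ih (mul_mem hb hb) e (by rw [← pow_two, ← pow_mul, ← pow_succ', hk])
  refine h.not_sq (hB (mul_mem hc hc)) c1 c2 fun a ha => ⟨a⁻¹ * (c * a * c⁻¹),
    mul_mem (inv_mem ha) (conj_mem_of_norm h.norm (h.syl.le (hB hc)) ha), ?_⟩
  have h1 : a⁻¹ * (c * a * c⁻¹) ∈ ⁅V, B⁆ := by
    have := commutator_mem_commutator (inv_mem ha) hc
    rwa [commutatorElement_def, inv_inv, mul_assoc, mul_assoc, ← mul_assoc c] at this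
  have h2 := commutator_eq_bot_iff.1 hq h1 c hc
  calc c * c * a * (c * c)⁻¹ = c * a * (c⁻¹ * (c * (a⁻¹ * (c * a * c⁻¹)))) * c⁻¹ := by group
    _ = c * a * c⁻¹ * (c * (a⁻¹ * (c * a * c⁻¹)) * c⁻¹) := by group
    _ = _ := by rw [h2]; group

theorem no_sq (h : FT V H T) {t v : G} (ht : t ∈ T) (t1 : t ≠ 1) (t2 : t * t = 1)
    (v2 : v * v = 1)
    (h1 : ∀ u ∈ V, u * u = 1 → u⁻¹ * (t * u * t⁻¹) = 1 ∨ u⁻¹ * (t * u * t⁻¹) = v)
    (h2 : ∃ c ∈ V, c * c = v) (h3 : ∀ c ∈ V, t * c = c * t → c * c ≠ v) : False := by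
  obtain ⟨g, hg, hn⟩ := h.exists_out
  obtain ⟨ho, hc⟩ := h.odd_conj hg hn ht t1 t2 ht t1 t2
  have tH := h.syl.le ht
  have ti : t⁻¹ = t := inv_eq_of_mul_eq_one_right t2
  have fx : ∀ c ∈ V, c * c * (c * c) = 1 → Commute t (c * c) := fun c hc c2 => by
    have hc' := conj_mem_of_norm h.norm tH hc
    have e : (c * c)⁻¹ * (t * (c * c) * t⁻¹) = c * (t * c * t⁻¹) * (c * (t * c * t⁻¹)) := by
      rw [inv_eq_of_mul_eq_one_right c2, (h.comm hc hc').symm.mul_mul_mul_comm, conj_mul]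
    rcases h1 _ (mul_mem hc hc) c2 with e1 | e1
    · rw [inv_mul_eq_one, eq_mul_inv_iff_mul_eq] at e1
      exact e1.symm
    · refine absurd (e.symm.trans e1) (h3 _ (mul_mem hc hc') ?_)
      calc t * (c * (t * c * t⁻¹)) = t * c * t⁻¹ * (t * t) * c * t⁻¹ := by group
        _ = t * c * t⁻¹ * c * t := by rw [t2, mul_one, ti]
        _ = _ := by rw [(h.comm hc hc').eq]
  have fx' : ∀ c ∈ V, c * c * (c * c) = 1 → Commute (g * t * g⁻¹) (c * c) := fun c hc c2 => by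
    have := (fx _ (conj_mem_of_norm' h.norm hg hc) (by
      calc _ = g⁻¹ * (c * c * (c * c)) * g := by group
        _ = 1 := by rw [c2]; group)).eq
    calc g * t * g⁻¹ * (c * c) = g * (t * (g⁻¹ * c * g * (g⁻¹ * c * g))) * g⁻¹ := by group
      _ = _ := by rw [this]; group
  obtain ⟨c, hcV, rfl⟩ := h2
  have hc' := conj_mem_of_norm h.norm hg hcV
  have c2 : g * c * g⁻¹ * (g * c * g⁻¹) * (g * c * g⁻¹ * (g * c * g⁻¹)) = 1 := by
    rw [conj_mul, conj_mul, v2, mul_one, mul_inv_cancel]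
  refine hc (cent_of_omega h.ab h.two (h.norm (mul_mem tH (mul_mem (mul_mem hg tH) (inv_mem hg))))
    ho (by rw [pow_orderOf_eq_one]; exact one_mem _) fun u hu u2 => ?_)
  obtain ⟨μ, m1, m2, m3, m4⟩ : ∃ μ ∈ V, t * u * t⁻¹ = u * μ ∧ Commute t μ ∧
      Commute (g * t * g⁻¹) μ := by
    rcases h1 u hu u2 with e | e
    · exact ⟨1, one_mem _, by rw [← e]; group, Commute.one_right _, Commute.one_right _⟩
    · exact ⟨_, mul_mem hcV hcV, by rw [← e]; group, fx c hcV v2, fx' c hcV v2⟩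
  obtain ⟨ν, n1, n2, n3, n4⟩ : ∃ ν ∈ V, g * t * g⁻¹ * u * (g * t * g⁻¹)⁻¹ = u * ν ∧ Commute t ν ∧
      Commute (g * t * g⁻¹) ν := by
    have e0 : g * t * g⁻¹ * u * (g * t * g⁻¹)⁻¹ =
      u * (g * ((g⁻¹ * u * g)⁻¹ * (t * (g⁻¹ * u * g) * t⁻¹)) * g⁻¹) := by group
    rcases h1 _ (conj_mem_of_norm' h.norm hg hu) (by
      calc _ = g⁻¹ * (u * u) * g := by group
        _ = 1 := by rw [u2]; group) with e | e
    · exact ⟨1, one_mem _, by rw [e0, e]; group, Commute.one_right _, Commute.one_right _⟩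
    · exact ⟨_, mul_mem hc' hc', by rw [e0, e, conj_mul], fx _ hc' c2, fx' _ hc' c2⟩
  refine fix_of_odd ho (by rw [pow_orderOf_eq_one, one_mul, mul_one]) (μ := μ * ν) ?_
    ((m3.mul_left m4).mul_right (n3.mul_left n4)).eq (Tw.of_mem h.two (mul_mem m1 n1))
  calc _ = t * (g * t * g⁻¹ * u * (g * t * g⁻¹)⁻¹) * t⁻¹ := by group
    _ = t * u * t⁻¹ * (t * ν * t⁻¹) := by rw [n2]; group
    _ = _ := by rw [m2, n3.eq, mul_inv_cancel_right, mul_assoc]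

end FT

end Cfsg.Agent.AI
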