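import Cfsg.Agent.AI.FF1
import Cfsg.Agent.H21.Offender
import Cfsg.Agent.H21.PAct

/-!
An offender makes the socle of the Sylow subgroup a quadratic offender (see notes/AI.md).
-/

set_option autoImplicit false

namespace Cfsg.Agent.AI

open Cfsg Cfsg.Agent.H49 Subgroup

universe u

variable {G : Type u} [Group G] [Finite G]

/-- The measure `|A| |C_V(A)|`. -/
noncomputable def msr (V A : Subgroup G) : ℕ := Nat.card A * Nat.card ↥(V ⊓ 𝒞(A))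

theorem msr_pos (V A : Subgroup G) : 0 < msr V A := Nat.mul_pos (card_pos' _) (card_pos' _)

omit [Finite G] in
theorem msr_bot (V : Subgroup G) : msr V ⊥ = Nat.card V := by
  rw [msr, card_bot, one_mul, inf_eq_left.2 (le_cent_bot V)]

omit [Finite G] in
theorem msr_cj {V : Subgroup G} {n : G} (hn : n ∈ 𝒩(V)) (A : Subgroup G) :
    msr V (cj n A) = msr V A := by
  have e : V ⊓ 𝒞(cj n A) = cj n (V ⊓ 𝒞(A)) := by
    rw [cj_inf, cj_eq_of_mem_norm hn, cj_centralizer]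
  rw [msr, msr, e, card_cj, card_cj]

theorem msr_mul_le (V : Subgroup G) {A B : Subgroup G} (h : A ≤ 𝒩(B)) :
    msr V A * msr V B ≤ msr V (A ⊔ B) * msr V (A ⊓ B) := by
  have h1 := card_sup_mul_card_inf (Or.inl h)
  have h2 : Nat.card ↥(V ⊓ 𝒞(A)) * Nat.card ↥(V ⊓ 𝒞(B)) ≤
      Nat.card ↥(V ⊓ 𝒞(A ⊓ B)) * Nat.card ↥((V ⊓ 𝒞(A)) ⊓ (V ⊓ 𝒞(B))) :=
    card_mul_le (inf_le_inf_left _ (cent_anti inf_le_left))
      (inf_le_inf_left _ (cent_anti inf_le_right))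
  have e : (V ⊓ 𝒞(A)) ⊓ (V ⊓ 𝒞(B)) = V ⊓ 𝒞(A ⊔ B) := by
    rw [cent_sup, inf_inf_distrib_left V]
  rw [e] at h2
  calc msr V A * msr V B
      = Nat.card A * Nat.card B * (Nat.card ↥(V ⊓ 𝒞(A)) * Nat.card ↥(V ⊓ 𝒞(B))) := by
        rw [msr, msr]; ring
    _ ≤ Nat.card ↥(A ⊔ B) * Nat.card ↥(A ⊓ B) *
        (Nat.card ↥(V ⊓ 𝒞(A ⊓ B)) * Nat.card ↥(V ⊓ 𝒞(A ⊔ B))) := Nat.mul_le_mul h1.ge h2
    _ = msr V (A ⊔ B) * msr V (A ⊓ B) := by rw [msr, msr]; ring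

/-- `Om T` has the largest measure among its subgroups. -/
theorem FT.msr_le {V H T B : Subgroup G} (h : FT V H T) (hB : B ≤ Om T) (hne : B ≠ ⊥)
    (hoff : Nat.card V ≤ msr V B) : ∀ C ≤ Om T, msr V C ≤ msr V (Om T) := by
  obtain ⟨A₀, hA₀, hm₀⟩ := Set.exists_max_image {A : Subgroup G | A ≤ Om T} (msr V)
    (Set.toFinite _) ⟨⊥, (bot_le : ⊥ ≤ Om T)⟩
  have hex : ∃ A : Subgroup G, A ≤ Om T ∧ A ≠ ⊥ ∧ ∀ C ≤ Om T, msr V C ≤ msr V A := by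
    by_cases e : A₀ = ⊥
    · refine ⟨B, hB, hne, fun C hC => (hm₀ C hC).trans ?_⟩
      rw [e, msr_bot]; exact hoff
    · exact ⟨A₀, hA₀, e, hm₀⟩
  obtain ⟨A, ⟨h1, h2, h3⟩, hmax⟩ := (wellFounded_gt (α := Subgroup G)).has_min
    {A : Subgroup G | A ≤ Om T ∧ A ≠ ⊥ ∧ ∀ C ≤ Om T, msr V C ≤ msr V A} hex
  have key : A = Om T := by
    refine h.eq_Om h1 h2 fun n hn => mem_norm_of_cj_le ?_
    have h4 : cj n A ≤ Om T := by
      have := cj_mono n h1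
      rwa [cj_Om, cj_eq_of_mem_norm hn.2] at this
    have h5 := msr_mul_le V (A := A) (B := cj n A)
      ((le_cent_of_abelian (Om_ab T) h1 h4).trans (centralizer_le_normalizer _))
    rw [msr_cj (h.norm hn.1)] at h5
    have h6 : msr V A ≤ msr V (A ⊔ cj n A) :=
      Nat.le_of_mul_le_mul_right (h5.trans (Nat.mul_le_mul_left _
        (h3 _ (inf_le_left.trans h1)))) (msr_pos V A)
    by_contra h7
    exact hmax (A ⊔ cj n A) ⟨sup_le h1 h4, ne_bot_mono le_sup_left h2,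
      fun C hC => (h3 C hC).trans h6⟩ (left_lt_sup.2 h7)
  rw [← key] at h3 ⊢
  exact h3

theorem FT.fq {V H T B : Subgroup G} (h : FT V H T) (hB : B ≤ Om T) (hne : B ≠ ⊥)
    (hoff : Nat.card V ≤ Nat.card B * Nat.card ↥(V ⊓ 𝒞(B))) : FQ V H T := by
  have hm := h.msr_le hB hne hoff
  have := h.ab
  have hH : Om T ≤ H := (Om_le T).trans h.syl.le
  have hAV : Om T ≤ 𝒩(V) := hH.trans h.norm
  have hab : ⁅Om T, Om T⁆ ≤ 𝒞(V) := by
    rw [commutator_eq_bot_iff_le_centralizer.2 (abelian_iff.1 (Om_ab T))]; exact bot_le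
  obtain ⟨h1, -⟩ := H21.replacement hAV hab hm (le_refl V)
  have hVA : ⁅V, Om T⁆ ≤ V := H21.commutator_le_of_le_normalizer hAV
  have h2 : Om T ⊓ 𝒞(⁅V, Om T⁆) ≠ ⊥ := by
    intro h0
    rw [h0, inf_eq_left.2 (le_cent_bot V)] at h1
    have h3 : ⁅V, Om T⁆ = ⊥ := by
      refine H21.eq_bot_of_le_commutator_of_pow_mem (p := 2) (A := Om T) (h.two.to_le hVA)
        (normalizer_commutator_ge_right _ _)
        (fun a ha => ⟨1, by rw [pow_one, pow_two, (AI.mem_Om.1 ha).2.2]; exact one_mem _⟩) ?_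
      calc ⁅V, Om T⁆ = ⁅⁅V, Om T⁆ ⊔ (V ⊓ 𝒞(Om T)), Om T⁆ := by rw [← h1]
        _ = ⁅⁅V, Om T⁆, Om T⁆ ⊔ ⁅V ⊓ 𝒞(Om T), Om T⁆ :=
            H21.commutator_sup_of_le_comm hVA inf_le_left hAV
        _ ≤ ⁅⁅V, Om T⁆, Om T⁆ := by
            rw [commutator_eq_bot_iff_le_centralizer.2 (inf_le_right : _ ≤ 𝒞(Om T)), sup_bot_eq]
    have h4 : Om T ≤ H ⊓ 𝒞(V) :=
      le_inf hH (cent_symm (commutator_eq_bot_iff_le_centralizer.1 h3))
    rw [h.faith] at h4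
    exact h.Om_ne_bot (le_bot_iff.1 h4)
  have h5 : H ⊓ 𝒩(T) ≤ 𝒩(Om T) := fun n hn =>
    mem_norm_iff_cj.2 (by rw [cj_Om, cj_eq_of_mem_norm hn.2])
  have h6 := h.eq_Om inf_le_left h2
    (norm_inf h5 (norm_cent (norm_commutator (inf_le_left.trans h.norm) h5)))
  refine ⟨h, cent_symm (h6.ge.trans inf_le_right), ?_⟩
  have h7 := hm ⊥ bot_le
  rwa [msr_bot] at h7

end Cfsg.Agent.AI
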