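import Cfsg.Agent.AI.FF1

/-!
The counting argument (see notes/AI.md).
-/

set_option autoImplicit false

namespace Cfsg.Agent.AI

open Cfsg Cfsg.Agent.H49 Subgroup

universe u

variable {G : Type u} [Group G] [Finite G]

namespace F3

variable {V H T : Subgroup G}

theorem qconj (h : FQ V H T) {g : G} (hg : g ∈ H) : FQ V H (cj g T) := by
  have e : cj g V = V := cj_eq_of_mem_norm (h.norm hg)
  refine ⟨h.toFT.conj hg, ?_, ?_⟩
  · rw [← cj_Om, ← cj_centralizer]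
    nth_rewrite 1 [← e]
    rw [← cj_commutator]
    exact cj_mono g h.quad
  · rw [← cj_Om, ← cj_centralizer]
    nth_rewrite 2 [← e]
    rw [← cj_inf, card_cj, card_cj]
    exact h.off

omit [Finite G] in
theorem omH (h : FT V H T) {t : G} (ht : t ∈ Om T) : t ∈ H := h.syl.le (Om_le T ht)

omit [Finite G] in
theorem theta (h : FQ V H T) {a t : G} (ha : a ∈ V) (ht : t ∈ Om T) :
    a⁻¹ * (t * a * t⁻¹) ∈ V ⊓ 𝒞(Om T) := by
  refine mem_inf.2 ⟨mul_mem (inv_mem ha) (conj_mem_of_norm h.norm (omH h.toFT ht) ha), h.quad ?_⟩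
  have := commutator_mem_commutator (inv_mem ha) ht
  rwa [commutatorElement_def, inv_inv, mul_assoc, mul_assoc, ← mul_assoc t] at this

/-- (a) -/
theorem fixA (h : FT V H T) {g w b : G} (hg : g ∈ H) (hw : w ∈ 𝒞(Om (cj g T))) (hb : b ∈ Om T)
    (b1 : b ≠ 1) (hbw : b * w = w * b) : w ∈ 𝒞(Om T) := by
  have hp := Nat.prime_two
  have h' := h.conj hg
  have l1 : Om (cj g T) ≤ H ⊓ 𝒞[w] :=
    le_inf ((Om_le _).trans h'.syl.le) (le_cent1_iff.2 hw)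
  obtain ⟨P, hP, l2⟩ := exists_sylowOf_ge (h'.syl.pi.of_le (Om_le _)) l1
  obtain ⟨x, hx, x1⟩ := ne_bot_iff_exists.1 h'.Om_ne_bot
  have l3 : P ≤ cj g T :=
    h'.le_of_mem (hP.pi.isPGroup hp) (hP.le.trans inf_le_left) (Om_le _ hx) x1 (l2 hx)
  have l4 : zpowers b ≤ H ⊓ 𝒞[w] := zpowers_le.2 ⟨omH h hb, mem_cent1.2 hbw⟩
  obtain ⟨c, hc, l5⟩ := sylowOf_subJ hP l4 (h.syl.pi.of_le (zpowers_le.2 (Om_le _ hb)))
  have m1 : c * b * c⁻¹ ∈ cj g T := l3 (l5 (conj_mem_cj.2 (mem_zpowers b)))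
  have m2 : g⁻¹ * c ∈ 𝒩(T) := by
    refine h.ti _ (mul_mem (inv_mem hg) hc.1) b (Om_le _ hb) b1 ?_
    have := mem_cj.1 m1
    rwa [show g⁻¹ * (c * b * c⁻¹) * g = g⁻¹ * c * b * (g⁻¹ * c)⁻¹ by group] at this
  have e : cj c T = cj g T := by
    have := cj_eq_of_mem_norm m2
    rw [cj_mul] at this
    nth_rewrite 2 [← this]
    rw [cj_cj_inv]
  rw [← e, ← cj_Om, cj_le_iff_of_mem hc] at l1
  exact le_cent1_iff.1 (l1.trans inf_le_right)

/-- (b) -/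
theorem interB (h : FT V H T) {g w b : G} (hg : g ∈ H) (hn : g ∉ 𝒩(T)) (hb : b ∈ Om T)
    (b1 : b ≠ 1) (hw : w ∈ 𝒞(Om (cj g T))) (hw' : w ∈ 𝒞(Om (cj (b * g) T))) :
    w ∈ 𝒞(Om T) := by
  obtain ⟨x, hx, x1⟩ := ne_bot_iff_exists.1 (h.conj hg).Om_ne_bot
  obtain ⟨⟨k, hk⟩, -⟩ := h.odd hg hn (Om_le _ hb) b1 hb.2.2 (Om_le _ hx) x1 hx.2.2
  have m1 : b * x * b⁻¹ ∈ Om (cj (b * g) T) := by
    rw [cj_mul, ← cj_Om]; exact conj_mem_cj.2 hx
  have c1 : Commute x w := hw x hx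
  have c2 : Commute (b * x * b⁻¹) w := hw' _ m1
  have bi : b⁻¹ = b := inv_eq_of_mul_eq_one_right hb.2.2
  have c3 : Commute ((b * x) ^ 2) w := by
    rw [show (b * x) ^ 2 = b * x * b⁻¹ * x by rw [bi, pow_two]; group]
    exact c2.mul_left c1
  have c4 : Commute (b * x) w := by
    have e : b * x = ((b * x) ^ 2) ^ (k + 1) := by
      rw [← pow_mul, show 2 * (k + 1) = 2 * k + 1 + 1 by ring, ← hk, pow_succ, pow_orderOf_eq_one,
        one_mul]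
    rw [e]; exact c3.pow_left _
  have c5 : Commute b w := by
    have := c4.mul_left c1.inv_left
    rwa [mul_inv_cancel_right] at this
  exact fixA h hg hw hb b1 c5

omit [Finite G] in
theorem card_W (h : FT V H T) {g : G} (hg : g ∈ H) :
    Nat.card ↥(V ⊓ 𝒞(Om (cj g T))) = Nat.card ↥(V ⊓ 𝒞(Om T)) := by
  rw [← cj_Om, ← cj_centralizer]
  nth_rewrite 1 [← cj_eq_of_mem_norm (h.norm hg)]
  rw [← cj_inf, card_cj]

/-- (d) -/
theorem notD (h : FQ V H T) {g : G} (hg : g ∈ H) (hn : g ∉ 𝒩(T)) :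
    ¬ V ⊓ 𝒞(Om T) ≤ V ⊓ 𝒞(Om (cj g T)) := by
  intro hle
  have e := eq_of_le_of_card_eq hle (card_W h.toFT hg).symm
  have h' := qconj h hg
  obtain ⟨t, ht, t1⟩ := ne_bot_iff_exists.1 h.Om_ne_bot
  obtain ⟨x, hx, x1⟩ := ne_bot_iff_exists.1 h'.Om_ne_bot
  obtain ⟨o1, o2⟩ := h.odd hg hn (Om_le _ ht) t1 ht.2.2 (Om_le _ hx) x1 hx.2.2
  refine o2 fun a ha => ?_
  have m1 := theta h ha ht
  have m2 := theta h' ha hx
  have m3 := mul_mem m1 (e ▸ m2)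
  have m4 : _ ∈ V ⊓ 𝒞(Om (cj g T)) := e ▸ m3
  have c1 : Commute t _ := (e ▸ m2 : _ ∈ V ⊓ 𝒞(Om T)).2 t ht
  refine (fix_of_odd o1 (by rw [pow_orderOf_eq_one, mul_one, one_mul]) ?_
    (Commute.mul_left (m3.2 t ht) (m4.2 x hx)) (Tw.of_mem h.two m3.1)).symm
  calc t * x * a * (t * x)⁻¹ = t * a * t⁻¹ * (t * (a⁻¹ * (x * a * x⁻¹)) * t⁻¹) := by group
    _ = _ := by rw [c1.eq]; group

omit [Finite G] in
theorem nn_mul (h : FT V H T) {g b : G} (hn : g ∉ 𝒩(T)) (hb : b ∈ T) : b * g ∉ 𝒩(T) :=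
  fun h1 => hn (by simpa using mul_mem (inv_mem (le_normalizer hb)) h1)

omit [Finite G] in
theorem mem_Wb {g b w : G} (hb : b ∈ Om T) (hw : w ∈ 𝒞(Om T)) :
    w ∈ 𝒞(Om (cj (b * g) T)) ↔ w ∈ 𝒞(Om (cj g T)) := by
  rw [cj_mul, ← cj_Om b, ← cj_centralizer, mem_cj, mul_assoc, ← hw b hb, inv_mul_cancel_left]

theorem arith {q w x v v₁ : ℕ} (x0 : 0 < x) (h1 : x ∣ w) (h2 : x < w) (h3 : v₁ * x = w * w)
    (h4 : (q + 1) * (w - x) ≤ v₁ - x) (h5 : v₁ ≤ v) (h6 : v ≤ q * w) :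
    v = q * w ∧ v ≤ v₁ ∧ v₁ - x ≤ (q + 1) * (w - x) := by
  obtain ⟨e, rfl⟩ := h1
  have e1 : v₁ = e * e * x := by
    apply Nat.eq_of_mul_eq_mul_right x0
    rw [h3]; ring
  obtain ⟨f, rfl⟩ : ∃ f, e = f + 2 := by
    refine ⟨e - 2, ?_⟩
    have : 1 < e := by
      by_contra h
      have : e ≤ 1 := by omega
      nlinarith
    omega
  have e2 : x * (f + 2) - x = (f + 1) * x := by
    apply Nat.sub_eq_of_eq_add; ring
  have e3 : v₁ - x = (f + 3) * ((f + 1) * x) := by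
    rw [e1]; apply Nat.sub_eq_of_eq_add; ring
  rw [e2, e3] at h4 ⊢
  have h7 := Nat.le_of_mul_le_mul_right h4 (by positivity)
  have h8 : (f + 2) * ((f + 2) * x) ≤ q * ((f + 2) * x) := by
    calc (f + 2) * ((f + 2) * x) = v₁ := by rw [e1]; ring
      _ ≤ q * (x * (f + 2)) := h5.trans h6
      _ = _ := by ring
  have h9 := Nat.le_of_mul_le_mul_right h8 (by positivity)
  obtain rfl : q = f + 2 := by omega
  have h10 : v₁ = (f + 2) * (x * (f + 2)) := by rw [e1]; ring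
  exact ⟨by omega, by omega, le_rfl⟩

/-- (e) -/
theorem cover (h : FQ V H T) {g : G} (hg : g ∈ H) (hn : g ∉ 𝒩(T)) :
    Nat.card V = Nat.card (Om T) * Nat.card ↥(V ⊓ 𝒞(Om T)) ∧
      ∀ a ∈ V, a ∈ 𝒞(Om T) ∨ ∃ b ∈ Om T, a ∈ 𝒞(Om (cj (b * g) T)) := by
  classical
  have := Fintype.ofFinite G
  set W := V ⊓ 𝒞(Om T) with hW
  set W' := V ⊓ 𝒞(Om (cj g T)) with hW'
  let F : Subgroup G → Finset G := fun K => Finset.univ.filter (· ∈ K)
  have mF : ∀ K a, a ∈ F K ↔ a ∈ K := fun K a => by simp [F]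
  have cF : ∀ K, (F K).card = Nat.card K := fun K => by
    rw [Nat.card_eq_fintype_card, Fintype.card_subtype]
  let A : Option (Om T) → Subgroup G := fun i =>
    i.elim W fun b => V ⊓ 𝒞(Om (cj ((b : G) * g) T))
  have a1 : ∀ i, W ⊓ W' ≤ A i := by
    rintro (_ | b)
    · exact inf_le_left
    · exact fun w hw => ⟨hw.1.1, (mem_Wb b.2 hw.1.2).2 hw.2.2⟩
  have a2 : ∀ i, Nat.card (A i) = Nat.card W := by
    rintro (_ | b)
    · rfl
    · exact card_W h.toFT (mul_mem (omH h.toFT b.2) hg)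
  have a3 : ∀ i, A i ≤ W ⊔ W' := by
    rintro (_ | b)
    · exact le_sup_left
    · intro w hw
      have bH := omH h.toFT b.2
      have m1 : (b : G)⁻¹ * w * b ∈ W' := by
        refine mem_inf.2 ⟨conj_mem_of_norm' h.norm bH hw.1, ?_⟩
        have := (mem_inf.1 hw).2
        rwa [cj_mul, ← cj_Om b.1, ← cj_centralizer, mem_cj] at this
      have m2 := theta h m1.1 b.2
      have := mul_mem (mem_sup_right (S := W) m1) (mem_sup_left (T := W') m2)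
      rwa [show (b : G)⁻¹ * w * b * (((b : G)⁻¹ * w * b)⁻¹ * (b * ((b : G)⁻¹ * w * b) * (b : G)⁻¹))
        = w by group] at this
  have a4 : ∀ b : Om T, W ⊓ A (some b) ≤ W ⊓ W' := fun b w hw =>
    ⟨hw.1, hw.1.1, (mem_Wb b.2 hw.1.2).1 hw.2.2⟩
  have a5 : ∀ i j, i ≠ j → A i ⊓ A j ≤ W ⊓ W' := by
    rintro (_ | b) (_ | b') hne
    · exact absurd rfl hne
    · exact a4 b'
    · rw [inf_comm]; exact a4 b
    · intro w hw
      refine a4 b ⟨⟨hw.1.1, ?_⟩, hw.1⟩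
      have hb : (b : G) * (b' : G)⁻¹ ≠ 1 := fun e =>
        hne (congrArg some (Subtype.ext (mul_inv_eq_one.1 e)))
      refine interB h.toFT (mul_mem (omH h.toFT b'.2) hg) (nn_mul h.toFT hn (Om_le _ b'.2))
        (mul_mem b.2 (inv_mem b'.2)) hb hw.2.2 ?_
      rw [show (b : G) * (b' : G)⁻¹ * (b' * g) = b * g by group]
      exact hw.1.2
  let U : Finset G := Finset.univ.biUnion fun i => F (A i) \ F (W ⊓ W')
  have u1 : U.card = (Nat.card (Om T) + 1) * (Nat.card W - Nat.card ↥(W ⊓ W')) := by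
    rw [Finset.card_biUnion]
    · rw [Finset.sum_congr rfl (g := fun _ => Nat.card W - Nat.card ↥(W ⊓ W'))]
      · rw [Finset.sum_const, Finset.card_univ, Fintype.card_option, smul_eq_mul,
          Nat.card_eq_fintype_card (α := Om T)]
      · intro i _
        rw [Finset.card_sdiff_of_subset fun w hw => (mF _ _).2 (a1 i ((mF _ _).1 hw)), cF, cF, a2]
    · intro i _ j _ hne
      refine Finset.disjoint_left.2 fun w h1 h2 => ?_
      rw [Finset.mem_sdiff, mF, mF] at h1 h2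
      exact h1.2 (a5 i j hne ⟨h1.1, h2.1⟩)
  have u2 : U ⊆ F (W ⊔ W') \ F (W ⊓ W') := by
    intro w hw
    obtain ⟨i, -, hi⟩ := Finset.mem_biUnion.1 hw
    rw [Finset.mem_sdiff, mF, mF] at hi ⊢
    exact ⟨a3 i hi.1, hi.2⟩
  have u3 : (F (W ⊔ W') \ F (W ⊓ W')).card = Nat.card ↥(W ⊔ W') - Nat.card ↥(W ⊓ W') := by
    rw [Finset.card_sdiff_of_subset fun w hw =>
      (mF _ _).2 ((inf_le_left.trans le_sup_left : W ⊓ W' ≤ W ⊔ W') ((mF _ _).1 hw)), cF, cF]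
  have l1 : W ⊔ W' ≤ V := sup_le inf_le_left inf_le_left
  have c1 := card_sup_mul_card_inf (H := W) (K := W')
    (Or.inl (norm_of_cent (le_cent_of_abelian h.ab inf_le_left inf_le_left)))
  rw [hW', card_W h.toFT hg, ← hW', ← hW] at c1
  obtain ⟨r1, r2, r3⟩ := arith (card_pos' _) (card_dvd_of_le inf_le_left)
    (card_lt_of_lt (lt_of_le_of_ne inf_le_left fun e => notD h hg hn (inf_eq_left.1 e))) c1
    (by rw [← u1, ← u3]; exact Finset.card_le_card u2) (card_le_of_le l1) h.off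
  refine ⟨r1, fun a ha => ?_⟩
  have e1 : W ⊔ W' = V := eq_of_le_of_card_ge l1 r2
  have e2 := Finset.eq_of_subset_of_card_le u2 (by rw [u1, u3]; exact r3)
  by_cases hx : a ∈ W ⊓ W'
  · exact Or.inl hx.1.2
  · have : a ∈ U := by rw [e2, Finset.mem_sdiff, mF, mF, e1]; exact ⟨ha, hx⟩
    obtain ⟨i, -, hi⟩ := Finset.mem_biUnion.1 this
    rw [Finset.mem_sdiff, mF] at hi
    rcases i with _ | b
    · exact Or.inl hi.1.2
    · exact Or.inr ⟨b, b.2, hi.1.2⟩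

omit [Finite G] in
theorem exg (h : FT V H T) : ∃ g ∈ H, g ∉ 𝒩(T) := by
  by_contra hc
  push Not at hc
  exact h.nn hc

/-- (f) -/
theorem centF (h : FQ V H T) {t a : G} (ht : t ∈ Om T) (t1 : t ≠ 1) (ha : a ∈ V)
    (e : t * a = a * t) : a ∈ 𝒞(Om T) := by
  obtain ⟨g, hg, hn⟩ := exg h.toFT
  rcases (cover h hg hn).2 a ha with h1 | ⟨b, hb, h1⟩
  · exact h1
  · exact fixA h.toFT (mul_mem (omH h.toFT hb) hg) h1 ht t1 e

/-- (g) -/
theorem outG (h : FQ V H T) {a t g : G} (ha : a ∈ V) (haW : a ∉ 𝒞(Om T)) (ht : t ∈ Om T)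
    (t1 : t ≠ 1) (hg : g ∈ H) (hn : g ∉ 𝒩(T)) : a⁻¹ * (t * a * t⁻¹) ∉ 𝒞(Om (cj g T)) := by
  intro hm
  have m1 := theta h ha ht
  obtain ⟨b, hb, h1⟩ := ((cover h hg hn).2 a ha).resolve_left haW
  have m2 : t * a * t⁻¹ ∈ 𝒞(Om (cj (b * g) T)) := by
    have := mul_mem h1 ((mem_Wb hb m1.2).2 hm)
    rwa [mul_inv_cancel_left] at this
  have m3 : t * a * t⁻¹ ∈ 𝒞(Om (cj (t * (b * g)) T)) := by
    rw [cj_mul, ← cj_Om t, ← cj_centralizer]; exact conj_mem_cj.2 h1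
  have m4 := interB h.toFT (mul_mem (omH h.toFT hb) hg) (nn_mul h.toFT hn (Om_le _ hb)) ht t1 m2 m3
  apply haW
  have := mul_mem m4 (inv_mem m1.2)
  have c : Commute a (t * a * t⁻¹) :=
    abelian_iff.1 h.ab (conj_mem_of_norm h.norm (omH h.toFT ht) ha) a ha
  rwa [mul_inv_rev, inv_inv, mul_inv_cancel_left] at this

/-- (h) -/
theorem lamH (h : FQ V H T) {g g' : G} (hg : g ∈ H) (hn : g ∉ 𝒩(T)) (hg' : g' ∈ H)
    (hn' : g' ∉ 𝒩(T)) : ∃ b ∈ Om T, cj g' T = cj (b * g) T := by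
  obtain ⟨t, ht, t1⟩ := ne_bot_iff_exists.1 h.Om_ne_bot
  obtain ⟨a, ha, haW⟩ : ∃ a ∈ V, a ∉ 𝒞(Om T) := by
    by_contra hc
    push Not at hc
    have : t ∈ H ⊓ 𝒞(V) := ⟨omH h.toFT ht, cent_symm (A := V) hc ht⟩
    rw [h.faith] at this
    exact t1 this
  have key : ∀ k ∈ H, g' * (a⁻¹ * (t * a * t⁻¹)) * g'⁻¹ ∈ 𝒞(Om (cj k T)) → g'⁻¹ * k ∈ 𝒩(T) := by
    intro k hk hm
    by_contra hc
    refine outG h ha haW ht t1 (mul_mem (inv_mem hg') hk) hc ?_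
    rw [cj_mul, ← cj_Om g'⁻¹, ← cj_centralizer, mem_cj, inv_inv]
    exact hm
  rcases (cover h hg hn).2 _ (conj_mem_of_norm h.norm hg' (theta h ha ht).1) with h1 | ⟨b, hb, h1⟩
  · refine absurd ?_ hn'
    have := key 1 (one_mem _) (by rwa [cj_one])
    simpa using this
  · refine ⟨b, hb, ?_⟩
    have := cj_eq_of_mem_norm (key _ (mul_mem (omH h.toFT hb) hg) h1)
    rw [cj_mul] at this
    nth_rewrite 1 [← this]
    rw [cj_cj_inv]

/-- (i) -/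
theorem omI (h : FQ V H T) : Om T = T := by
  refine le_antisymm (Om_le T) fun s hs => ?_
  obtain ⟨g, hg, hn⟩ := exg h.toFT
  obtain ⟨b, hb, e⟩ := lamH h hg hn (mul_mem (h.syl.le hs) hg) (nn_mul h.toFT hn hs)
  have m1 : b⁻¹ * s ∈ T := mul_mem (inv_mem (Om_le _ hb)) hs
  have m2 : b⁻¹ * s ∈ cj g T := by
    refine (h.toFT.conj hg).mem_of_norm (h.syl.le m1)
      (Tw.of_mem (h.syl.pi.isPGroup Nat.prime_two) m1) (mem_norm_of_cj_le ?_)
    rw [cj_cj, mul_assoc, cj_mul, e, cj_cj, inv_mul_cancel_left]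
  have m3 : b⁻¹ * s ∈ T ⊓ cj g T := ⟨m1, m2⟩
  rw [h.toFT.inf_cj hg hn, mem_bot, inv_mul_eq_one] at m3
  exact m3 ▸ hb

end F3

theorem FQ.fc {V H T : Subgroup G} (h : FQ V H T) : FC V H T := by
  have e := F3.omI h
  obtain ⟨g₀, hg₀, hn₀⟩ := F3.exg h.toFT
  refine ⟨h.toFT, fun t ht => (e.ge ht).2.2, fun t ht t1 a ha h1 => ?_, ?_, fun a ha t ht => ?_,
    fun a ha h1 t ht t1 g hg hn => ?_, fun g hg hn g' hg' hn' => ?_⟩
  · exact e ▸ F3.centF h (e.ge ht) t1 ha h1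
  · have := (F3.cover h hg₀ hn₀).1
    rwa [e] at this
  · exact e ▸ (F3.theta h ha (e.ge ht)).2
  · have := F3.outG h ha (by rwa [e]) (e.ge ht) t1 hg hn
    rwa [← cj_Om, e] at this
  · obtain ⟨b, hb, h1⟩ := F3.lamH h hg hn hg' hn'
    exact ⟨b, e.le hb, h1⟩

end Cfsg.Agent.AI
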