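import Cfsg.Agent.AI.FF2
import Cfsg.Agent.AI.FF3

/-!
The FF-lemma for a faithful action (see notes/AI.md).
-/

set_option autoImplicit false

namespace Cfsg.Agent.AI

open Cfsg Cfsg.Agent.H49 Subgroup

universe u

variable {G : Type u} [Group G] [Finite G]

omit [Finite G] in
/-- The homomorphism `a ↦ a⁻¹ (t a t⁻¹)` on an abelian subgroup normalized by `t`. -/
def thHom {V : Subgroup G} (hV : IsMulCommutative V) {t : G} (ht : t ∈ 𝒩(V)) : V →* G where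
  toFun a := (a : G)⁻¹ * (t * a * t⁻¹)
  map_one' := by simp
  map_mul' a b := by
    have hb : (a : G)⁻¹ * (t * a * t⁻¹) ∈ V :=
      mul_mem (inv_mem a.2) ((mem_normalizer_iff.1 ht _).1 a.2)
    have e : (b : G)⁻¹ * ((a : G)⁻¹ * (t * a * t⁻¹)) = (a : G)⁻¹ * (t * a * t⁻¹) * (b : G)⁻¹ :=
      abelian_iff.1 hV hb _ (inv_mem b.2)
    calc ((a * b : V) : G)⁻¹ * (t * (a * b : V) * t⁻¹)
        = (b : G)⁻¹ * ((a : G)⁻¹ * (t * a * t⁻¹)) * (t * b * t⁻¹) := by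
          rw [Subgroup.coe_mul]; group
      _ = _ := by rw [e]; group

namespace FC

variable {V H T : Subgroup G}

theorem conj (h : FC V H T) {g : G} (hg : g ∈ H) : FC V H (cj g T) := by
  have hV : ∀ a ∈ V, g⁻¹ * a * g ∈ V := fun a ha => conj_mem_of_norm' h.norm hg ha
  have hN : ∀ g' : G, g' ∉ 𝒩(cj g T) → g⁻¹ * g' * g ∉ 𝒩(T) := fun g' h1 h2 =>
    h1 (by rw [← cj_normalizer]; exact mem_cj.2 h2)
  have hH : ∀ g' ∈ H, g⁻¹ * g' * g ∈ H := fun g' h1 => mul_mem (mul_mem (inv_mem hg) h1) hg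
  refine ⟨h.toFT.conj hg, ?_, ?_, ?_, ?_, ?_, ?_⟩
  · intro t ht
    obtain ⟨s, hs, rfl⟩ := mem_cj'.1 ht
    calc g * s * g⁻¹ * (g * s * g⁻¹) = g * (s * s) * g⁻¹ := by group
      _ = 1 := by rw [h.sq s hs]; group
  · intro t ht t1 a ha e
    obtain ⟨s, hs, rfl⟩ := mem_cj'.1 ht
    rw [← cj_centralizer, mem_cj]
    refine h.cent s hs (fun e1 => t1 (by rw [e1]; group)) _ (hV a ha) ?_
    calc s * (g⁻¹ * a * g) = g⁻¹ * (g * s * g⁻¹ * a) * g := by group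
      _ = g⁻¹ * a * g * s := by rw [e]; group
  · rw [card_cj, ← cj_centralizer]
    nth_rewrite 2 [← cj_eq_of_mem_norm (h.norm hg)]
    rw [← cj_inf, card_cj]
    exact h.card
  · intro a ha t ht
    obtain ⟨s, hs, rfl⟩ := mem_cj'.1 ht
    rw [← cj_centralizer, mem_cj]
    have := h.quad _ (hV a ha) s hs
    convert this using 1
    group
  · intro a ha hc t ht t1 g' hg' hn
    obtain ⟨s, hs, rfl⟩ := mem_cj'.1 ht
    rw [← cj_centralizer, mem_cj] at hc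
    have := h.out _ (hV a ha) hc s hs (fun e1 => t1 (by rw [e1]; group)) _ (hH g' hg') (hN g' hn)
    intro h1
    apply this
    rw [cj_cj, show g' * g = g * (g⁻¹ * g' * g) by group, cj_mul, ← cj_centralizer, mem_cj] at h1
    convert h1 using 1
    group
  · intro g1 h1 n1 g2 h2 n2
    obtain ⟨b, hb, e⟩ := h.lam _ (hH g1 h1) (hN g1 n1) _ (hH g2 h2) (hN g2 n2)
    refine ⟨g * b * g⁻¹, conj_mem_cj.2 hb, ?_⟩
    have e1 := congrArg (cj g) e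
    rw [cj_cj, cj_cj] at e1
    rw [cj_cj, cj_cj]
    convert e1 using 2 <;> group

omit [Finite G] in
theorem le (h : FC V H T) : T ≤ H := h.syl.le

omit [Finite G] in
theorem inf_cent (h : FC V H T) : T ⊓ 𝒞(V) = ⊥ :=
  le_bot_iff.1 ((inf_le_inf_right _ h.le).trans h.faith.le)

omit [Finite G] in
theorem ne_one (_h : FC V H T) {t : G} (ht : t ∉ 𝒞(V)) : t ≠ 1 := fun e => ht (e ▸ one_mem _)

omit [Finite G] in
theorem th_sq (h : FC V H T) {a t : G} (ha : a ∈ V) (ht : t ∈ T) :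
    a⁻¹ * (t * a * t⁻¹) * (a⁻¹ * (t * a * t⁻¹)) = 1 := by
  have e1 : t * (a⁻¹ * (t * a * t⁻¹)) = a⁻¹ * (t * a * t⁻¹) * t := h.quad a ha t ht t ht
  have e2 := h.sq t ht
  calc a⁻¹ * (t * a * t⁻¹) * (a⁻¹ * (t * a * t⁻¹))
      = a⁻¹ * (t * a * t⁻¹) * (t⁻¹ * (t * (a⁻¹ * (t * a * t⁻¹)))) := by group
    _ = a⁻¹ * (t * a * (t * t)⁻¹ * a⁻¹ * t * a) := by rw [e1]; group
    _ = a⁻¹ * (t * t) * a := by nth_rewrite 1 [e2]; group
    _ = 1 := by rw [e2]; group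

omit [Finite G] in
theorem exists_out (h : FC V H T) : ∃ g ∈ H, g ∉ 𝒩(T) := by
  have := h.nn
  rw [SetLike.le_def] at this
  push Not at this
  exact this

omit [Finite G] in
theorem inv_out {g : G} (hn : g ∉ 𝒩(T)) : g⁻¹ ∉ 𝒩(cj g T) := fun h1 => hn (by
  rw [← cj_normalizer, mem_cj] at h1
  have : g⁻¹ * g⁻¹ * g = g⁻¹ := by group
  rw [this] at h1
  exact inv_mem_iff.1 h1)

theorem gen (h : FC V H T) : ∀ a ∈ V, ∃ u ∈ V, u * u = 1 ∧ u⁻¹ * a ∈ 𝒞(T) := by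
  intro a ha
  obtain ⟨g, hg, hn⟩ := h.exists_out
  have h' := h.conj hg
  obtain ⟨t, ht, t1⟩ := ne_bot_iff_exists.1 h'.toFT.ne_bot
  have htV : t ∈ 𝒩(V) := h.norm (h'.le ht)
  set θ := thHom h.ab htV with hθ
  have hθ' : ∀ b : V, θ b = (b : G)⁻¹ * (t * b * t⁻¹) := fun b => rfl
  have hker : θ.ker = (V ⊓ 𝒞(cj g T)).subgroupOf V := by
    ext b
    rw [MonoidHom.mem_ker, mem_subgroupOf, mem_inf, hθ', inv_mul_eq_one, eq_mul_inv_iff_mul_eq]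
    exact ⟨fun e => ⟨b.2, h'.cent t ht t1 b b.2 e.symm⟩, fun e => (e.2 t ht).symm⟩
  have hc1 : Nat.card θ.range * Nat.card ↥(V ⊓ 𝒞(cj g T)) = Nat.card V := by
    rw [← card_subgroupOf_of_le (inf_le_left : V ⊓ 𝒞(cj g T) ≤ V), ← hker, ← index_ker,
      index_mul_card]
  have hc2 : Nat.card θ.range = Nat.card T := by
    have := h'.card
    rw [← hc1, card_cj] at this
    exact Nat.eq_of_mul_eq_mul_right (card_pos' _) this
  have hU : θ.range ≤ V := by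
    rintro _ ⟨b, rfl⟩
    exact mul_mem (inv_mem b.2) ((mem_normalizer_iff.1 htV _).1 b.2)
  have hd : θ.range ⊓ (V ⊓ 𝒞(T)) = ⊥ := by
    rw [eq_bot_iff_forall]
    rintro _ ⟨⟨b, rfl⟩, -, h2⟩
    by_cases hb : (b : G) ∈ 𝒞(cj g T)
    · have : b ∈ θ.ker := by rw [hker]; exact mem_inf.2 ⟨b.2, hb⟩
      exact this
    · have := h'.out b b.2 hb t ht t1 g⁻¹ (inv_mem hg) (inv_out hn)
      rw [cj_inv_cj] at this
      exact absurd h2 this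
  have hp : IsProd θ.range (V ⊓ 𝒞(T)) V := isProd_of_card hU inf_le_left (by
    rw [hd, card_bot, mul_one, hc2, h.card])
  obtain ⟨_, ⟨b, rfl⟩, w, hw, rfl⟩ := hp.2.2 a ha
  exact ⟨θ b, hU ⟨b, rfl⟩, h'.th_sq b.2 ht, by rw [inv_mul_cancel_left]; exact hw.2⟩

theorem nsq (h : FC V H T) : ∀ a ∈ V, a ∉ 𝒞(T) → ∀ t ∈ T, t ∉ 𝒞(V) → ∀ c ∈ V,
    a⁻¹ * (t * a * t⁻¹) ≠ c * c := by
  intro a ha hc t ht t1 c hcV e
  obtain ⟨g, hg, hn⟩ := h.exists_out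
  obtain ⟨u, hu, u2, hw⟩ := (h.conj hg).gen c hcV
  apply h.out a ha hc t ht (h.ne_one t1) g hg hn
  have e1 : u * c = c * u := abelian_iff.1 h.ab hcV u hu
  have e2 : c * c = u⁻¹ * c * (u⁻¹ * c) := by
    calc c * c = (u * u)⁻¹ * (c * c) := by rw [u2]; group
      _ = u⁻¹ * (u⁻¹ * (c * u) * u⁻¹) * c := by group
      _ = _ := by rw [← e1]; group
  rw [e, e2]
  exact mul_mem hw hw

theorem mul_mem_of_two (h : FC V H T) (h2 : Nat.card T = 2) {a b : G} (ha : a ∈ V) (hb : b ∈ V)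
    (h3 : a ∉ 𝒞(T)) (h4 : b ∉ 𝒞(T)) : a * b ∈ 𝒞(T) := by
  have hi : ((V ⊓ 𝒞(T)).subgroupOf V).index = 2 := by
    have e1 := index_mul_card ((V ⊓ 𝒞(T)).subgroupOf V)
    rw [card_subgroupOf_of_le inf_le_left, h.card, h2] at e1
    exact Nat.eq_of_mul_eq_mul_right (card_pos' _) e1
  have := (mul_mem_iff_of_index_two hi (a := ⟨a, ha⟩) (b := ⟨b, hb⟩)).2
    (iff_of_false (fun e => h3 (mem_inf.1 (mem_subgroupOf.1 e)).2)
      (fun e => h4 (mem_inf.1 (mem_subgroupOf.1 e)).2))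
  exact (mem_inf.1 (mem_subgroupOf.1 this)).2

theorem two' (h : FC V H T) (h2 : Nat.card T = 2) : ∃ x v, Q2 V H T x v := by
  obtain ⟨g, hg, hn⟩ := h.exists_out
  have h' := h.conj hg
  have h2' : Nat.card (cj g T) = 2 := by rw [card_cj, h2]
  have hab : ∀ a ∈ V, ∀ b ∈ V, a * b = b * a := fun a ha b hb => abelian_iff.1 h.ab hb a ha
  have hcj : ∀ k ∈ H, ∀ a ∈ V, k * a * k⁻¹ ∈ V := fun k hk a ha => conj_mem_of_norm h.norm hk ha
  obtain ⟨t, ht, t1⟩ := ne_bot_iff_exists.1 h.toFT.ne_bot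
  have hT : ∀ s ∈ T, s = 1 ∨ s = t := by
    intro s hs
    by_contra! hh
    obtain ⟨y, -, hy⟩ := (Nat.card_eq_two_iff' (1 : T)).1 h2
    have e1 := hy ⟨s, hs⟩ fun e => hh.1 (congrArg Subtype.val e)
    have e2 := hy ⟨t, ht⟩ fun e => t1 (congrArg Subtype.val e)
    exact hh.2 (congrArg Subtype.val (e1.trans e2.symm))
  have htV : t ∉ 𝒞(V) := fun e => t1 (by
    have : t ∈ T ⊓ 𝒞(V) := mem_inf.2 ⟨ht, e⟩
    rwa [h.inf_cent, mem_bot] at this)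
  obtain ⟨a₀, ha₀, hc₀⟩ : ∃ a₀ ∈ V, a₀ ∉ 𝒞(T) := by
    by_contra! hh
    exact htV fun a ha => (hh a ha t ht).symm
  obtain ⟨v, hv⟩ : ∃ v, v = a₀⁻¹ * (t * a₀ * t⁻¹) := ⟨_, rfl⟩
  have vV : v ∈ V := hv ▸ mul_mem (inv_mem ha₀) (hcj t (h.le ht) a₀ ha₀)
  have v2 : v * v = 1 := hv ▸ h.th_sq ha₀ ht
  have vc : v ∈ 𝒞(T) := hv ▸ h.quad a₀ ha₀ t ht
  have hth : ∀ a ∈ V, a ∉ 𝒞(T) → a⁻¹ * (t * a * t⁻¹) = v := by
    intro a ha hc
    have e1 := h.mul_mem_of_two h2 (inv_mem ha₀) ha (fun e => hc₀ (inv_mem_iff.1 e)) hc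
    have e2 : t * (a₀⁻¹ * a) = a₀⁻¹ * a * t := e1 t ht
    have e3 := hab v vV _ (mul_mem (inv_mem ha₀) ha)
    calc a⁻¹ * (t * a * t⁻¹)
        = (a₀⁻¹ * a)⁻¹ * (a₀⁻¹ * (t * a₀ * t⁻¹)) * (t * (a₀⁻¹ * a)) * t⁻¹ := by group
      _ = (a₀⁻¹ * a)⁻¹ * (v * (a₀⁻¹ * a)) := by rw [← hv, e2]; group
      _ = v := by rw [e3]; group
  have hth2 : ∀ s ∈ T, ∀ a ∈ V, a⁻¹ * (s * a * s⁻¹) = 1 ∨ a⁻¹ * (s * a * s⁻¹) = v := by
    intro s hs a ha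
    rcases hT s hs with rfl | rfl
    · left; group
    · by_cases hc : a ∈ 𝒞(T)
      · left; rw [hc s hs]; group
      · exact Or.inr (hth a ha hc)
  have v1 : v ≠ 1 := fun e => hc₀ (h.cent t ht t1 a₀ ha₀ (by
    rw [e, eq_comm, inv_mul_eq_one, eq_mul_inv_iff_mul_eq] at hv
    exact hv.symm))
  have vc' : v ∉ 𝒞(cj g T) := hv ▸ h.out a₀ ha₀ hc₀ t ht t1 g hg hn
  obtain ⟨x, hx⟩ : ∃ x, x = g * v * g⁻¹ := ⟨_, rfl⟩
  have hx' : x = (g * a₀ * g⁻¹)⁻¹ * (g * t * g⁻¹ * (g * a₀ * g⁻¹) * (g * t * g⁻¹)⁻¹) := by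
    rw [hx, hv]; group
  have xV : x ∈ V := hx ▸ hcj g hg v vV
  have x2 : x * x = 1 := by
    rw [hx]
    calc g * v * g⁻¹ * (g * v * g⁻¹) = g * (v * v) * g⁻¹ := by group
      _ = 1 := by rw [v2]; group
  have xc : x ∉ 𝒞(T) := by
    have := h'.out _ (hcj g hg a₀ ha₀) (by rw [← cj_centralizer, conj_mem_cj]; exact hc₀)
      _ (conj_mem_cj.2 ht) (fun e => t1 (conj_eq_one_iff.1 e)) g⁻¹ (inv_mem hg) (inv_out hn)
    rwa [cj_inv_cj, ← hx'] at this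
  have hact : t * x * t⁻¹ = x * v := by rw [← hth x xV xc]; group
  have hcase : ∀ τ ∈ H, Tw τ → τ ∈ T ∨ ∃ b ∈ T, ∃ s ∈ T, τ = b * (g * s * g⁻¹) * b⁻¹ := by
    intro τ hτ h3
    obtain ⟨k, hk, h4⟩ := h.toFT.exists_cj hτ h3
    by_cases hkn : k ∈ 𝒩(T)
    · left; rwa [cj_eq_of_mem_norm hkn] at h4
    · obtain ⟨b, hb, e⟩ := h.lam g hg hn k hk hkn
      rw [e] at h4
      obtain ⟨s, hs, rfl⟩ := mem_cj'.1 h4
      exact Or.inr ⟨b, hb, s, hs, by group⟩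
  have hXo : ∀ ξ ∈ V, ξ ∈ 𝒞(T) → ξ ∈ 𝒞(cj g T) → ξ ∈ Xo V H := by
    intro ξ h1 h3 h4
    refine mem_Xo.2 ⟨h1, fun τ hτ h5 => ?_⟩
    rcases hcase τ hτ h5 with h6 | ⟨b, hb, s, hs, rfl⟩
    · exact h3 τ h6
    · have e1 : Commute b ξ := h3 b hb
      have e2 : Commute (g * s * g⁻¹) ξ := h4 _ (conj_mem_cj.2 hs)
      exact ((e1.mul_left e2).mul_left e1.inv_left).eq
  have vi : v⁻¹ = v := inv_eq_of_mul_eq_one_right v2
  have xi : x⁻¹ = x := inv_eq_of_mul_eq_one_right x2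
  have hdec : ∀ a ∈ V, a ∈ 𝒞(T) → ∃ ξ ∈ Xo V H, ξ = a ∨ ξ = a * v := by
    intro a ha h3
    by_cases h4 : a ∈ 𝒞(cj g T)
    · exact ⟨a, hXo a ha h3 h4, Or.inl rfl⟩
    · exact ⟨a * v, hXo _ (mul_mem ha vV) (mul_mem h3 vc) (h'.mul_mem_of_two h2' ha vV h4 vc'),
        Or.inr rfl⟩
  refine ⟨x, v, xV, vV, x2, v2, v1, vc, xc, ?_, ?_, ?_, ?_⟩
  · intro τ hτ h3 a ha
    rcases hcase τ hτ h3 with h6 | ⟨b, hb, s, hs, rfl⟩
    · rcases hth2 τ h6 a ha with e | e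
      · exact Or.inl e
      · exact Or.inr (Or.inl e)
    · have hbg : (b * g)⁻¹ * a * (b * g) ∈ V :=
        conj_mem_of_norm' h.norm (mul_mem (h.le hb) hg) ha
      have e0 : a⁻¹ * (b * (g * s * g⁻¹) * b⁻¹ * a * (b * (g * s * g⁻¹) * b⁻¹)⁻¹) =
          b * (g * (((b * g)⁻¹ * a * (b * g))⁻¹ * (s * ((b * g)⁻¹ * a * (b * g)) * s⁻¹)) * g⁻¹)
            * b⁻¹ := by group
      rw [e0]
      rcases hth2 s hs _ hbg with e | e
      · rw [e]; left; group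
      · rw [e, ← hx]
        rcases hT b hb with rfl | rfl
        · right; right; left; group
        · right; right; right; exact hact
  · intro a ha
    by_cases h3 : a ∈ 𝒞(T)
    · obtain ⟨ξ, h4, rfl | rfl⟩ := hdec a ha h3
      · exact ⟨ξ, h4, Or.inl (inv_mul_cancel _)⟩
      · refine ⟨_, h4, Or.inr (Or.inl ?_)⟩
        rw [mul_inv_rev, inv_mul_cancel_right, vi]
    · obtain ⟨ξ, h4, rfl | rfl⟩ := hdec _ (mul_mem ha xV) (h.mul_mem_of_two h2 ha xV h3 xc)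
      · refine ⟨_, h4, Or.inr (Or.inr (Or.inl ?_))⟩
        rw [mul_inv_rev, inv_mul_cancel_right, xi]
      · refine ⟨_, h4, Or.inr (Or.inr (Or.inr ?_))⟩
        rw [mul_inv_rev, mul_inv_rev, mul_assoc, inv_mul_cancel_right, xi, vi, hab v vV x xV]
  · intro s hs h3
    rcases hT s hs with rfl | rfl
    · exact absurd (one_mem _) h3
    · exact hact
  · exact ⟨g * t * g⁻¹, mul_mem (mul_mem hg (h.le ht)) (inv_mem hg),
      (Tw.of_sq (h.sq t ht)).conj g, _, hcj g hg a₀ ha₀, hx'⟩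

end FC

theorem FC.fg {V H T : Subgroup G} (h : FC V H T) : FG V H T := by
  refine ⟨fun t ht h1 => h.cent t ht (h.ne_one h1), ?_, h.quad, h.gen, h.nsq, fun h2 => ?_⟩
  · rw [h.inf_cent, card_bot, mul_one, h.card]
  · rw [h.inf_cent, card_bot, mul_one] at h2
    exact h.two' h2

theorem FT.ff {V H T B : Subgroup G} (h : FT V H T) (hB : B ≤ T) (hne : B ≠ ⊥)
    (hq : ⁅⁅V, B⁆, B⁆ = ⊥) (hoff : Nat.card V ≤ Nat.card B * Nat.card ↥(V ⊓ 𝒞(B))) :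
    FG V H T ∧ B = T := by
  have hc : FC V H T := (h.fq (h.le_Om hB hq) hne hoff).fc
  refine ⟨hc.fg, eq_of_le_of_card_ge hB ?_⟩
  obtain ⟨b, hb, b1⟩ := ne_bot_iff_exists.1 hne
  have h1 : V ⊓ 𝒞(B) ≤ V ⊓ 𝒞(T) := fun a ha =>
    mem_inf.2 ⟨(mem_inf.1 ha).1, hc.cent b (hB hb) b1 a (mem_inf.1 ha).1 ((mem_inf.1 ha).2 b hb)⟩
  have h2 := hoff.trans (Nat.mul_le_mul_left _ (card_le_of_le h1))
  rw [hc.card] at h2
  exact Nat.le_of_mul_le_mul_right h2 (card_pos' _)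

end Cfsg.Agent.AI
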