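import Cfsg.Agent.AI.Trans

/-!
Existence of offenders; non-normal essential subgroups (see notes/AI.md).
-/

set_option autoImplicit false

namespace Cfsg.Agent.AI

open Cfsg Cfsg.Agent.H49 Subgroup
open scoped commutatorElement

universe u

variable {G : Type u} [Group G] [Finite G]

variable {S E : Subgroup G}

namespace OffAux

theorem swap0 (hc : Ctx S) (hn : ¬ S ≤ 𝒩(E)) : ∃ s ∈ S, s ∈ 𝒩(S ⊓ 𝒩(E)) ∧ s ∉ 𝒩(E) := by
  have h1 : S ⊓ 𝒩(E) < S := lt_of_le_of_ne inf_le_left fun e => hn (e.ge.trans inf_le_right)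
  obtain ⟨s, hs, hs'⟩ := SetLike.exists_of_lt (lt_inf_norm_of_nilpotent hc.nil h1)
  exact ⟨s, hs.1, hs.2, fun r => hs' ⟨hs.1, r⟩⟩

omit [Finite G] in
theorem normR {s : G} (h1 : s ∈ 𝒩(S ⊓ 𝒩(E))) : S ⊓ 𝒩(E) ≤ 𝒩(cj s E) := by
  rw [← cj_normalizer, ← cj_eq_of_mem_norm h1]
  exact cj_mono s inf_le_right

omit [Finite G] in
theorem leR (h : Ess S E) : E ≤ S ⊓ 𝒩(E) := le_inf h.le le_normalizer

omit [Finite G] in
theorem cjR (h : Ess S E) {s : G} (h1 : s ∈ 𝒩(S ⊓ 𝒩(E))) : cj s E ≤ S ⊓ 𝒩(E) :=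
  cj_le_of_mem_norm (leR h) h1

theorem off_cj (hc : Ctx S) (h : Ess S E) {s : G} (h1 : s ∈ 𝒩(S ⊓ 𝒩(E))) (h2 : s ∉ 𝒩(E)) :
    FG E 𝒩(E) (S ⊓ 𝒩(E)) ∧ S ⊓ 𝒩(E) ≤ E ⊔ cj s E := by
  have hab : cj s E ≤ 𝒞(cj s E) := abelian_iff.1 (isMulCommutative_cj.2 h.ab)
  refine h.ff hc (cjR h h1) (fun r => h2 (mem_norm_of_cj_le r)) (commutator_eq_bot_iff.2
    ((commutator_le_right_of_norm ((leR h).trans (normR h1))).trans hab)) ?_
  rw [card_cj]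
  exact Nat.mul_le_mul_left _ (card_le_of_le (le_inf inf_le_right (inf_le_left.trans hab)))

omit [Finite G] in
theorem memE (h : Ess S E) {x : G} (hx : x ∈ S) (h1 : x ∈ 𝒞(S ⊓ 𝒩(E))) : x ∈ E :=
  h.cent ⟨hx, cent_anti (leR h) h1⟩

theorem le_of_eq (hc : Ctx S) (h : Ess S E) (hn : S ≤ 𝒩(E)) {A : Subgroup G} (hA : A ≤ S)
    (e : E ≤ ⁅E, A⁆ ⊔ (E ⊓ 𝒞(A))) : A ≤ E := by
  have hNE : ⁅E, A⁆ ≤ E := commutator_le_left_of_norm (hA.trans hn)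
  have hb : ⁅E, A⁆ = ⊥ := by
    by_contra hne
    have hlt := commutator_lt_of_nilpotent (N := ⁅E, A⁆) (K := E ⊔ A)
      (hc.two.to_le (sup_le h.le hA)).isNilpotent (hNE.trans le_sup_left)
      (sup_le (norm_of_cent (le_cent_of_abelian h.ab le_rfl hNE))
        (norm_commutator (hA.trans hn) le_normalizer)) hne
    refine hlt.not_ge (Subgroup.commutator_le.2 fun x hx a ha => ?_)
    obtain ⟨n, hn', w, hw, rfl⟩ := (mem_sup_of_norm_right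
      (norm_of_cent (le_cent_of_abelian h.ab hNE inf_le_left))).1 (e hx)
    have e1 : a * w = w * a := hw.2 a ha
    have : ⁅n * w, a⁆ = ⁅n, a⁆ := by
      simp only [commutatorElement_def]
      rw [mul_assoc n, ← e1]; group
    rw [this]
    exact commutator_mem_commutator hn' (mem_sup_right ha)
  exact (le_inf hA (cent_symm (commutator_eq_bot_iff.1 hb))).trans h.cent

end OffAux

open OffAux

theorem Ess.ne (hc : Ctx S) (h : Ess S E) (hn : ¬ S ≤ 𝒩(E)) : NE S E := by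
  obtain ⟨s, -, h1, h2⟩ := swap0 hc hn
  exact ⟨h, hn, (off_cj hc h h1 h2).1, fun s _ h1 h2 => (off_cj hc h h1 h2).2⟩

theorem Ess.class_two (hc : Ctx S) (h : Ess S E) (hn : S ≤ 𝒩(E)) (ho : ¬ NoOff S E) :
    ⁅S, S⁆ ≤ 𝒞(S) := by
  simp only [NoOff, not_forall] at ho
  obtain ⟨B, hBS, hBab, hcard, hBE⟩ := ho
  have := h.ab
  obtain ⟨A, ⟨hAB, hAE⟩, hmax⟩ := Set.exists_max_image {A : Subgroup G | A ≤ B ∧ ¬ A ≤ E}
    (fun A => Nat.card A * Nat.card ↥(E ⊓ 𝒞(A))) (Set.toFinite _) ⟨B, le_rfl, hBE⟩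
  have hAS := hAB.trans hBS
  have hAab := abelian_of_le hBab hAB
  have hsm : ∀ A', A' ≤ A → A' ≤ E → Nat.card E * Nat.card A' ≤ Nat.card A * Nat.card ↥(E ⊓ 𝒞(A)) :=
    fun A' h1 h2 => le_trans (Nat.mul_le_mul hcard (card_le_of_le
      (le_inf h2 (le_cent_of_abelian hBab (h1.trans hAB) le_rfl)))) (hmax B ⟨le_rfl, hBE⟩)
  obtain ⟨e1, e2⟩ := H21.replacement (V := E) (A := A) (hAS.trans hn)
    (by rw [commutator_eq_bot_iff.2 (abelian_iff.1 hAab)]; exact bot_le) (fun A' h1 => by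
      by_cases h2 : A' ≤ E
      · rw [mul_comm]
        exact le_trans (Nat.mul_le_mul_right _ (card_le_of_le inf_le_left)) (hsm A' h1 h2)
      · exact hmax A' ⟨h1.trans hAB, h2⟩) (U := E) le_rfl
  set A₁ := A ⊓ 𝒞(⁅E, A⁆) with hA₁
  have h1 : A₁ ≤ A := inf_le_left
  have hne : ¬ A₁ ≤ E := fun r => hAE (le_of_eq hc h hn hAS (by
    rw [← e1]; exact le_inf le_rfl (le_cent_of_abelian h.ab le_rfl r)))
  obtain ⟨fg, hsup⟩ := h.ff hc (B := A₁) (le_inf (h1.trans hAS) (h1.trans (hAS.trans hn))) hne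
    (commutator_eq_bot_iff.2 ((commutator_mono le_rfl h1).trans (cent_symm inf_le_right)))
    (by rw [← e2]; exact hsm _ (inf_le_left.trans h1) inf_le_right)
  rw [inf_eq_left.2 hn] at fg hsup
  have dec : ∀ s ∈ S, ∃ e ∈ E, ∃ a ∈ A, s = e * a := fun s hs => by
    obtain ⟨e, he, a, ha, r⟩ := (mem_sup_of_norm_left (h1.trans (hAS.trans hn))).1 (hsup hs)
    exact ⟨e, he, a, h1 ha, r⟩
  refine Subgroup.commutator_le.2 fun s hs s' hs' => ?_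
  obtain ⟨e, he, a, ha, rfl⟩ := dec s hs
  obtain ⟨e', he', a', ha', rfl⟩ := dec s' hs'
  have c1 : e * e' = e' * e := abelian_iff.1 h.ab he' e he
  have c2 : a * a' = a' * a := abelian_iff.1 hAab ha' a ha
  have t1 := conj_mem_of_norm (norm_cent le_normalizer) (h.le (mul_mem he he')) (fg.quad e' he' a (hAS ha))
  have t2 := conj_mem_of_norm (norm_cent le_normalizer) (h.le he') (fg.quad _ (inv_mem he) a' (hAS ha'))
  convert mul_mem t1 t2 using 1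
  calc ⁅e * a, e' * a'⁆ = e * a * e' * a⁻¹ * (a * a') * a⁻¹ * e⁻¹ * a'⁻¹ * e'⁻¹ := by
        rw [commutatorElement_def]; group
    _ = e * a * e' * a⁻¹ * (e' * e)⁻¹ * (e' * e) * a' * e⁻¹ * a'⁻¹ * e'⁻¹ := by rw [c2]; group
    _ = _ := by nth_rw 1 [← c1]; group

namespace NE

theorem cent_eq (hc : Ctx S) (h : NE S E) {a : G} (ha : a ∈ E) (hW : a ∉ 𝒞(S ⊓ 𝒩(E))) :
    S ⊓ 𝒞[a] = E := by
  refine (eq_of_inf_norm_le_of_nilpotent (hc.two.to_le inf_le_left).isNilpotent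
    (le_inf h.le (le_cent1_iff.2 (abelian_iff.1 h.ab ha))) fun t ht => ?_).symm
  by_contra hn
  exact hW (h.fg.cent t ⟨ht.1.1, ht.2⟩ (fun r => hn (h.cent ⟨ht.1.1, r⟩)) a ha (mem_cent1.1 ht.1.2))

theorem mem_norm (hc : Ctx S) (h : NE S E) {a g : G} (ha : a ∈ E) (hW : a ∉ 𝒞(S ⊓ 𝒩(E)))
    (hg : g ∈ S) (h1 : g * a * g⁻¹ ∈ E) : g ∈ 𝒩(E) := by
  refine mem_norm_of_le_cj ?_
  nth_rw 2 [← h.cent_eq hc ha hW]
  rw [cj_inf, cj_eq_of_mem hg, cj_cent1]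
  exact le_inf h.le (le_cent1_iff.2 (abelian_iff.1 h.ab h1))

theorem exists_inv (hc : Ctx S) (h : NE S E) : ∃ a ∈ E, a * a = 1 ∧ a ∉ 𝒞(S ⊓ 𝒩(E)) := by
  have h1 : ¬ E ≤ 𝒞(S ⊓ 𝒩(E)) := fun r =>
    (hc.lt_norm h.le h.ab).not_ge ((le_inf inf_le_left (cent_symm r)).trans h.cent)
  obtain ⟨a, ha, ha'⟩ := SetLike.not_le_iff_exists.1 h1
  obtain ⟨v, hv, v2, r⟩ := h.fg.gen a ha
  exact ⟨v, hv, v2, fun r' => ha' ((mul_mem_cancel_left (inv_mem r')).1 r)⟩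

theorem exists_swap (hc : Ctx S) (h : NE S E) : ∃ s ∈ S, s ∈ 𝒩(S ⊓ 𝒩(E)) ∧ s ∉ 𝒩(E) :=
  swap0 hc h.nnor

set_option linter.unusedVariables false in
set_option linter.unusedSectionVars false in
/-- `E ⊓ E^s` is the centre of `R`. -/
theorem inf_cj (hc : Ctx S) (h : NE S E) {s : G} (hs : s ∈ S) (h1 : s ∈ 𝒩(S ⊓ 𝒩(E)))
    (h2 : s ∉ 𝒩(E)) : E ⊓ cj s E = E ⊓ 𝒞(S ⊓ 𝒩(E)) := by
  refine le_antisymm (le_inf inf_le_left (le_trans ?_ (cent_anti (h.sup s hs h1 h2))))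
    (le_inf inf_le_left fun x hx => mem_cj.2 (memE h.toEss ?_ ?_))
  · rw [cent_sup]
    exact inf_le_inf (abelian_iff.1 h.ab) (abelian_iff.1 (isMulCommutative_cj.2 h.ab))
  · exact mul_mem (mul_mem (inv_mem hs) (h.le hx.1)) hs
  · exact conj_mem_of_norm' (norm_cent le_rfl) h1 hx.2

set_option linter.unusedVariables false in
set_option linter.unusedSectionVars false in
theorem norm_cj (hc : Ctx S) (h : NE S E) {s : G} (hs : s ∈ S) (h1 : s ∈ 𝒩(S ⊓ 𝒩(E))) :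
    S ⊓ 𝒩(cj s E) = S ⊓ 𝒩(E) := by
  rw [← cj_eq_of_mem_norm h1, cj_inf, cj_eq_of_mem hs, cj_normalizer]

/-- The involutions of `R` lie in `E` or `E^s`. -/
theorem invol (hc : Ctx S) (h : NE S E) {s r : G} (hs : s ∈ S) (h1 : s ∈ 𝒩(S ⊓ 𝒩(E)))
    (h2 : s ∉ 𝒩(E)) (hr : r ∈ S ⊓ 𝒩(E)) (r2 : r * r = 1) : r ∈ E ∨ r ∈ cj s E := by
  obtain ⟨e, he, f, hf, rfl⟩ := (mem_sup_of_norm_left ((cjR h.toEss h1).trans inf_le_right)).1 (h.sup s hs h1 h2 hr)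
  obtain ⟨e', he', rfl⟩ := mem_cj'.1 hf
  obtain ⟨a, ha, a2, hw⟩ := h.fg.gen e he
  obtain ⟨a', ha', a2', hw'⟩ := h.fg.gen e' he'
  have hb : s * a' * s⁻¹ ∈ cj s E := conj_mem_cj.2 ha'
  have hbR := cjR h.toEss h1 hb
  have b2 : s * a' * s⁻¹ * (s * a' * s⁻¹) = 1 := by
    rw [show s * a' * s⁻¹ * (s * a' * s⁻¹) = s * (a' * a') * s⁻¹ by group, a2']; group
  have hv : (s * a' * s⁻¹)⁻¹ * (s * e' * s⁻¹) ∈ 𝒞(S ⊓ 𝒩(E)) := by
    have := conj_mem_of_norm (norm_cent le_rfl) h1 hw'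
    convert this using 1; group
  have hvE := memE h.toEss (cjR h.toEss h1 (mul_mem (inv_mem hb) hf)).1 hv
  have hwE := mul_mem (inv_mem ha) he
  generalize s * a' * s⁻¹ = b at *
  generalize s * e' * s⁻¹ = f at *
  by_cases haW : a ∈ 𝒞(S ⊓ 𝒩(E))
  · have : e ∈ E ⊓ cj s E := h.inf_cj hc hs h1 h2 ▸ ⟨he, (mul_mem_cancel_left (inv_mem haW)).1 hw⟩
    exact .inr (mul_mem this.2 hf)
  by_cases hbE : b ∈ E
  · exact .inl (mul_mem he ((mul_mem_cancel_left (inv_mem hbE)).1 hvE))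
  refine absurd ?_ (h.fg.nsq a ha haW b hbR (fun r => hbE (h.cent ⟨hbR.1, r⟩)) _ (inv_mem (mul_mem hwE hvE)))
  have c1 : b * (a⁻¹ * e) = a⁻¹ * e * b := hw b hbR
  have c2 := mul_mem hw hv _ (mul_mem (leR h.toEss ha) hbR)
  have e1 : e * f = a * b * (a⁻¹ * e * (b⁻¹ * f)) := by
    calc e * f = a * (a⁻¹ * e * b) * (b⁻¹ * f) := by group
      _ = _ := by rw [← c1]; group
  rw [e1] at r2
  generalize a⁻¹ * e * (b⁻¹ * f) = w at *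
  rw [inv_eq_of_mul_eq_one_right a2, inv_eq_of_mul_eq_one_right b2]
  calc a * (b * a * b) = a * b * (a * b * w) * w * (w⁻¹ * w⁻¹) := by group
    _ = a * b * w * (a * b * w) * (w⁻¹ * w⁻¹) := by nth_rw 1 [c2]; group
    _ = _ := by rw [r2, one_mul]

/-- `R` has index 2 in its normalizer in `S`. -/
theorem swap (hc : Ctx S) (h : NE S E) {s τ : G} (hs : s ∈ S) (h1 : s ∈ 𝒩(S ⊓ 𝒩(E)))
    (h2 : s ∉ 𝒩(E)) (hτ : τ ∈ S) (h3 : τ ∈ 𝒩(S ⊓ 𝒩(E))) (h4 : τ ∉ 𝒩(E)) :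
    cj τ E = cj s E ∧ cj τ (cj s E) = E ∧ τ * s ∈ 𝒩(E) := by
  obtain ⟨a, ha, a2, hW⟩ := h.exists_inv hc
  have key : ∀ τ ∈ S, τ ∈ 𝒩(S ⊓ 𝒩(E)) → τ ∉ 𝒩(E) → cj τ E = cj s E := by
    intro τ hτ h3 h4
    have h5 := (h.invol hc hs h1 h2 (conj_mem_of_norm le_rfl h3 (leR h.toEss ha)) (by
      rw [show τ * a * τ⁻¹ * (τ * a * τ⁻¹) = τ * (a * a) * τ⁻¹ by group, a2]; group)).resolve_left
      fun r => h4 (h.mem_norm hc ha hW hτ r)
    have h6 := h.mem_norm hc ha hW (mul_mem (inv_mem hs) hτ) (by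
      have := mem_cj.1 h5
      convert this using 1; group)
    nth_rw 2 [← cj_eq_of_mem_norm h6]
    rw [cj_cj, mul_inv_cancel_left]
  have h5 : τ * s ∈ 𝒩(E) := by
    by_contra hn
    have := (key _ (mul_mem hτ hs) (mul_mem h3 h1) hn).trans (key τ hτ h3 h4).symm
    rw [cj_mul, cj_inj] at this
    exact h2 (mem_norm_iff_cj.2 this)
  exact ⟨key τ hτ h3 h4, by rw [cj_cj, cj_eq_of_mem_norm h5], h5⟩

end NE

end Cfsg.Agent.AI
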