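import Cfsg.Agent.AI.FF4
import Cfsg.Agent.H21.FF3

/-!
The FF-lemma for an essential subgroup (see notes/AI.md).
-/

set_option autoImplicit false

namespace Cfsg.Agent.AI

open Cfsg Cfsg.Agent.H49 Subgroup
open scoped commutatorElement

universe u

variable {G : Type u} [Group G] [Finite G]

/-- A faithful model of the action of `N(E)` on `E`. -/
structure Md (E : Subgroup G) {Γ : Type u} [Group Γ] (ι : 𝒩(E) →* Γ) (j : E →* Γ) : Prop where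
  inj : Function.Injective j
  conj : ∀ (g : 𝒩(E)) (a : E), ι g * j a * (ι g)⁻¹ =
    j ⟨g * a * (g : G)⁻¹, (mem_normalizer_iff.1 g.2 _).1 a.2⟩
  ker : ∀ g : 𝒩(E), (g : G) ∈ 𝒞(E) → ι g = 1

theorem exists_md (E : Subgroup G) :
    ∃ (Γ : Type u) (_ : Group Γ) (_ : Finite Γ) (ι : 𝒩(E) →* Γ) (j : E →* Γ), Md E ι j := by
  refine ⟨E ⋊[MonoidHom.id _] MulAut E, inferInstance,
    Finite.of_equiv _ SemidirectProduct.equivProd.symm,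
    SemidirectProduct.inr.comp E.normalizerMonoidHom, SemidirectProduct.inl,
    SemidirectProduct.inl_injective, fun g v => ?_, fun g hg => ?_⟩
  · rw [← map_inv, MonoidHom.comp_apply, MonoidHom.comp_apply, map_inv,
      ← SemidirectProduct.inl_aut]
    rfl
  · rw [MonoidHom.comp_apply, show E.normalizerMonoidHom g = 1 from ?_, map_one]
    ext v
    change (g : G) * v * (g : G)⁻¹ = v
    rw [← hg v v.2, mul_inv_cancel_right]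

namespace Md

variable {E : Subgroup G} {Γ : Type u} [Group Γ] {ι : 𝒩(E) →* Γ} {j : E →* Γ}

/-- the image of a subgroup of `N(E)` -/
abbrev im (ι : 𝒩(E) →* Γ) (A : Subgroup G) : Subgroup Γ := (A.subgroupOf 𝒩(E)).map ι

omit [Finite G]

theorem comm_iff (s : Md E ι j) (g : 𝒩(E)) (a : E) :
    ι g * j a = j a * ι g ↔ (g : G) * a = a * g := by
  rw [← mul_inv_eq_iff_eq_mul, s.conj, s.inj.eq_iff, Subtype.ext_iff, mul_inv_eq_iff_eq_mul]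

theorem mem_centV (s : Md E ι j) (g : 𝒩(E)) : ι g ∈ 𝒞(j.range) ↔ (g : G) ∈ 𝒞(E) :=
  ⟨fun h a ha => ((s.comm_iff g ⟨a, ha⟩).1 (h _ ⟨_, rfl⟩).symm).symm, by
    rintro h _ ⟨a, rfl⟩
    exact ((s.comm_iff g a).2 (h a a.2).symm).symm⟩

theorem eq_one_iff (s : Md E ι j) (g : 𝒩(E)) : ι g = 1 ↔ (g : G) ∈ 𝒞(E) :=
  ⟨fun h => (s.mem_centV g).1 (h ▸ one_mem _), s.ker g⟩

theorem mem_centT (s : Md E ι j) {A : Subgroup G} (hA : A ≤ 𝒩(E)) (a : E) :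
    j a ∈ 𝒞(im ι A) ↔ (a : G) ∈ 𝒞(A) :=
  ⟨fun h g hg => (s.comm_iff ⟨g, hA hg⟩ a).1 (h _ ⟨_, hg, rfl⟩), by
    rintro h _ ⟨g, hg, rfl⟩
    exact (s.comm_iff g a).2 (h g hg)⟩

theorem mem_im (s : Md E ι j) {A : Subgroup G} (hA : A ≤ 𝒩(E)) (g : 𝒩(E)) :
    ι g ∈ im ι A ↔ (g : G) ∈ A ⊔ 𝒞(E) := by
  constructor
  · rintro ⟨r, hr, e⟩
    have h1 : ((r⁻¹ * g : 𝒩(E)) : G) ∈ 𝒞(E) :=
      (s.eq_one_iff _).1 (by rw [map_mul, map_inv, e, inv_mul_cancel])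
    have : (g : G) = r * ((r⁻¹ * g : 𝒩(E)) : G) := by simp
    rw [this]
    exact mul_mem (mem_sup_left hr) (mem_sup_right h1)
  · intro h
    obtain ⟨r, hr, c, hc, e⟩ := (mem_sup_of_norm_right (norm_cent hA)).1 h
    refine ⟨⟨r, hA hr⟩, hr, ?_⟩
    rw [show g = ⟨r, hA hr⟩ * ⟨c, cent_le_norm _ hc⟩ from Subtype.ext e, map_mul,
      s.ker ⟨c, _⟩ hc, mul_one]

theorem theta (s : Md E ι j) (g : 𝒩(E)) (a : E) : (j a)⁻¹ * (ι g * j a * (ι g)⁻¹) =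
    j ⟨(a : G)⁻¹ * (g * a * (g : G)⁻¹),
      mul_mem (inv_mem a.2) ((mem_normalizer_iff.1 g.2 _).1 a.2)⟩ := by
  rw [s.conj, ← map_inv, ← map_mul]; rfl

theorem card_V (s : Md E ι j) : Nat.card j.range = Nat.card E :=
  (Nat.card_congr (MonoidHom.ofInjective s.inj).toEquiv).symm

theorem card_inf_cent (s : Md E ι j) {A : Subgroup G} (hA : A ≤ 𝒩(E)) :
    Nat.card ↥(j.range ⊓ 𝒞(im ι A)) = Nat.card ↥(E ⊓ 𝒞(A)) := by
  have : j.range ⊓ 𝒞(im ι A) = ((𝒞(A)).subgroupOf E).map j := by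
    apply le_antisymm
    · rintro _ ⟨⟨a, rfl⟩, h⟩
      exact ⟨a, (s.mem_centT hA a).1 h, rfl⟩
    · rintro _ ⟨a, h, rfl⟩
      exact ⟨⟨a, rfl⟩, (s.mem_centT hA a).2 h⟩
  rw [this, card_map_of_injective s.inj, card_subgroupOf, inf_comm]

theorem card_im (s : Md E ι j) {A : Subgroup G} (hA : A ≤ 𝒩(E)) :
    Nat.card (im ι A) * Nat.card ↥(A ⊓ 𝒞(E)) = Nat.card A := by
  have h1 : A.subgroupOf 𝒩(E) ⊓ ι.ker = (A ⊓ 𝒞(E)).subgroupOf 𝒩(E) := by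
    ext g
    rw [mem_inf, MonoidHom.mem_ker, s.eq_one_iff]; rfl
  rw [← card_subgroupOf_of_le hA, ← H21.Sim.card_map_mul ι (A.subgroupOf 𝒩(E)), h1,
    card_subgroupOf_of_le (inf_le_left.trans hA)]

theorem faith (s : Md E ι j) : ι.range ⊓ 𝒞(j.range) = ⊥ := by
  rw [eq_bot_iff]
  rintro _ ⟨⟨g, rfl⟩, h⟩
  exact s.ker g ((s.mem_centV g).1 h)

theorem in4 (s : Md E ι j) {x v y : E} (h : In4 (j x) (j v) (j y)) : In4 (x : G) v y := by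
  rcases h with h | h | h | h
  · exact .inl (congrArg Subtype.val (s.inj (h.trans (map_one j).symm)))
  · exact .inr (.inl (congrArg Subtype.val (s.inj h)))
  · exact .inr (.inr (.inl (congrArg Subtype.val (s.inj h))))
  · exact .inr (.inr (.inr (congrArg Subtype.val (s.inj (h.trans (map_mul j _ _).symm)))))

theorem tw {g : 𝒩(E)} (h : Tw (g : G)) : Tw (ι g) := by
  obtain ⟨k, hk⟩ := h
  exact Tw.map ι ⟨k, Subtype.ext hk⟩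

theorem sq (s : Md E ι j) {x : E} (h : j x * j x = 1) : (x : G) * x = 1 :=
  congrArg Subtype.val (s.inj (by rw [map_mul, h, map_one] : j (x * x) = j 1))

variable [Finite Γ] {R : Subgroup G}

theorem q2 (s : Md E ι j) (hR : R ≤ 𝒩(E)) (h2 : IsPGroup 2 R) (t : FT j.range ι.range (im ι R))
    {x v : Γ} (q : Q2 j.range ι.range (im ι R) x v) : ∃ x v, Q2 E 𝒩(E) R x v := by
  obtain ⟨x, rfl⟩ := q.xV
  obtain ⟨v, rfl⟩ := q.vV
  refine ⟨x, v, x.2, v.2, s.sq q.x2, s.sq q.v2, fun e => q.v1 ?_, (s.mem_centT hR v).1 q.vc,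
    fun e => q.xc ((s.mem_centT hR x).2 e), fun g hg h1 a ha => ?_, fun a ha => ?_,
    fun g hg h1 => ?_, ?_⟩
  · rw [show v = 1 from Subtype.ext e, map_one]
  · have := q.comm (ι ⟨g, hg⟩) ⟨_, rfl⟩ (tw h1) (j ⟨a, ha⟩) ⟨_, rfl⟩
    rw [s.theta] at this
    exact s.in4 this
  · obtain ⟨_, ⟨⟨ξ, rfl⟩, h1⟩, h3⟩ := q.dec (j ⟨a, ha⟩) ⟨_, rfl⟩
    rw [← map_inv, ← map_mul] at h3
    exact ⟨ξ, ⟨ξ.2, fun g hg h4 => (s.comm_iff ⟨g, hg⟩ ξ).1 (h1 _ ⟨_, rfl⟩ (tw h4))⟩, s.in4 h3⟩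
  · have := q.act (ι ⟨g, hR hg⟩) ⟨_, hg, rfl⟩ (fun e => h1 ((s.mem_centV _).1 e))
    rw [s.conj, ← map_mul] at this
    exact congrArg Subtype.val (s.inj this)
  · obtain ⟨τ, hτ, h1, _, ⟨a, rfl⟩, e⟩ := q.ex
    obtain ⟨_, ⟨g, rfl⟩, h3⟩ := t.exists_cj hτ h1
    obtain ⟨_, ⟨r, hr, rfl⟩, rfl⟩ := mem_cj'.1 h3
    rw [← map_inv ι, ← map_mul, ← map_mul, s.theta] at e
    exact ⟨_, (g * r * g⁻¹).2, (Tw.of_mem h2 hr).conj g, a, a.2, congrArg Subtype.val (s.inj e)⟩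

theorem fg (s : Md E ι j) (hR : R ≤ 𝒩(E)) (h2 : IsPGroup 2 R) [Finite R]
    (t : FT j.range ι.range (im ι R)) (f : FG j.range ι.range (im ι R)) : FG E 𝒩(E) R := by
  have h0 : Nat.card ↥(im ι R ⊓ 𝒞(j.range)) = 1 := by
    rw [eq_bot_iff.2 ((inf_le_inf_right _ (map_le_range _ _)).trans s.faith.le), card_bot]
  refine ⟨fun g hg h1 a ha e => ?_, ?_, fun a ha g hg => ?_, fun a ha => ?_,
    fun a ha h1 g hg h3 c hc e => ?_, fun e => ?_⟩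
  · exact (s.mem_centT hR ⟨a, ha⟩).1 (f.cent (ι ⟨g, hR hg⟩) ⟨_, hg, rfl⟩
      (fun e => h1 ((s.mem_centV _).1 e)) _ ⟨_, rfl⟩ ((s.comm_iff _ _).2 e))
  · have := f.card
    rw [h0, mul_one, s.card_V, s.card_inf_cent hR] at this
    rw [this, ← s.card_im hR, mul_right_comm]
  · have := f.quad (j ⟨a, ha⟩) ⟨_, rfl⟩ (ι ⟨g, hR hg⟩) ⟨_, hg, rfl⟩
    rw [s.theta] at this
    exact (s.mem_centT hR _).1 this
  · obtain ⟨_, ⟨u, rfl⟩, h1, h3⟩ := f.gen (j ⟨a, ha⟩) ⟨_, rfl⟩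
    rw [← map_inv, ← map_mul] at h3
    exact ⟨u, u.2, s.sq h1, (s.mem_centT hR _).1 h3⟩
  · refine f.nsq (j ⟨a, ha⟩) ⟨_, rfl⟩ (fun e => h1 ((s.mem_centT hR _).1 e)) (ι ⟨g, hR hg⟩)
      ⟨_, hg, rfl⟩ (fun e => h3 ((s.mem_centV _).1 e)) (j ⟨c, hc⟩) ⟨_, rfl⟩ ?_
    rw [s.theta, ← map_mul]
    exact congrArg j (Subtype.ext e)
  · have h1 := s.card_im hR
    rw [e] at h1
    have : Finite ↥(R ⊓ 𝒞(E)) := Finite.of_injective _ (inclusion_injective inf_le_left)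
    obtain ⟨x, v, q⟩ := f.two (by rw [h0, Nat.eq_of_mul_eq_mul_right Nat.card_pos h1])
    exact s.q2 hR h2 t q

end Md

/-- The model of an essential subgroup. -/
theorem Ess.ft {S E : Subgroup G} (hc : Ctx S) (h : Ess S E) {Γ : Type u} [Group Γ] [Finite Γ]
    {ι : 𝒩(E) →* Γ} {j : E →* Γ} (s : Md E ι j) : FT j.range ι.range (Md.im ι (S ⊓ 𝒩(E))) := by
  have hp := Nat.prime_two
  have hR : S ⊓ 𝒩(E) ≤ 𝒩(E) := inf_le_right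
  have hM : S ⊓ 𝒩(E) ⊔ 𝒞(E) ≤ 𝒩(E) := sup_le hR (cent_le_norm _)
  have hS : IsSylowOf 2 (S ⊓ 𝒩(E)) (S ⊓ 𝒩(E) ⊔ 𝒞(E)) := h.syl.sub le_sup_left hM
  have hn : ∀ g : 𝒩(E), (g : G) ∈ 𝒩(S) → ι g ∈ 𝒩(Md.im ι (S ⊓ 𝒩(E))) := fun g hg => by
    refine mem_normalizer_fintype ?_
    rintro _ ⟨r, hr, rfl⟩
    refine ⟨g * r * g⁻¹, ⟨(mem_normalizer_iff.1 hg _).1 hr.1, (g * r * g⁻¹).2⟩, ?_⟩
    rw [map_mul, map_mul, map_inv]
  refine ⟨abelian_iff.2 ?_, ?_, ?_, s.faith, ?_, ?_, fun h1 => h.nn ?_⟩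
  · rintro _ ⟨a, rfl⟩ _ ⟨b, rfl⟩
    rw [← map_mul, ← map_mul]
    exact congrArg j (Subtype.ext (abelian_iff.1 h.ab a.2 b b.2))
  · exact (hc.two.to_le h.le).of_surjective j.rangeRestrict j.rangeRestrict_surjective
  · refine le_norm_iff.2 ?_
    rintro _ ⟨g, rfl⟩ _ ⟨a, rfl⟩
    rw [s.conj]; exact ⟨_, rfl⟩
  · have := ((hall_subgroupOf_top hR).2 h.syl).map ι
    rwa [← MonoidHom.range_eq_map] at this
  · rintro _ ⟨g, rfl⟩ _ ⟨x, hx, rfl⟩ x1 h1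
    rw [← map_inv, ← map_mul, ← map_mul, s.mem_im hR] at h1
    have x2 : (x : G) ∉ 𝒞(E) := fun e => x1 (s.ker x e)
    have hP : E ⊔ zpowers (x : G) ≤ S ⊓ 𝒩(E) :=
      sup_le (le_inf h.le le_normalizer) (zpowers_le.2 hx)
    have hP2 : ¬ IsMulCommutative ↥(E ⊔ zpowers (x : G)) := fun e =>
      x2 (le_cent_of_abelian e le_sup_right le_sup_left (mem_zpowers _))
    obtain ⟨c, hcM, h2⟩ := sylowOf_subJ hS (X := H49.cj (g : G) (E ⊔ zpowers (x : G))) (by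
      rw [cj_sup, cj_eq_of_mem_norm g.2, cj_zpowers]
      exact sup_le ((abelian_iff.1 h.ab).trans le_sup_right) (zpowers_le.2 h1))
      (isPi_of_isPGroup hp (isPGroup_cj.2 (hc.two.to_le (hP.trans inf_le_left))))
    rw [cj_cj] at h2
    have h4 : c * g ∈ 𝒩(S) := hc.mem_norm hP2 (hP.trans inf_le_left) (h2.trans inf_le_left)
    have h3 := hn (⟨c, hM hcM⟩ * g) h4
    rw [map_mul] at h3
    exact (mul_mem_cancel_left (le_normalizer ((s.mem_im hR ⟨c, hM hcM⟩).2 hcM))).1 h3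
  · have h2 : 𝒩(E) ≤ 𝒩(S ⊓ 𝒩(E) ⊔ 𝒞(E)) := le_norm_iff.2 fun g hg m hm => by
      have := (mem_normalizer_iff.1 (h1 ⟨⟨g, hg⟩, rfl⟩) _).1 ((s.mem_im hR ⟨m, hM hm⟩).2 hm)
      rw [← map_inv, ← map_mul, ← map_mul, s.mem_im hR] at this
      exact this
    refine (frattini_arg hM h2 hS).sup_eq.ge.trans (sup_le (sup_le ?_ le_sup_left) ?_)
    · exact (le_inf hR (inf_le_left.trans le_normalizer)).trans le_sup_right
    · exact (inf_le_inf_left _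
        (hc.norm_le (hc.norm_nab h.le h.ab h.cent) inf_le_left)).trans le_sup_right

theorem Ess.ff {S E B : Subgroup G} (hc : Ctx S) (h : Ess S E) (hB : B ≤ S ⊓ 𝒩(E))
    (hne : ¬ B ≤ E) (hq : ⁅⁅E, B⁆, B⁆ = ⊥)
    (hoff : Nat.card E * Nat.card ↥(B ⊓ E) ≤ Nat.card B * Nat.card ↥(E ⊓ 𝒞(B))) :
    FG E 𝒩(E) (S ⊓ 𝒩(E)) ∧ S ⊓ 𝒩(E) ≤ E ⊔ B := by
  obtain ⟨Γ, _, _, ι, j, s⟩ := exists_md E
  have t := h.ft hc s
  have hB' : B ≤ 𝒩(E) := hB.trans inf_le_right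
  have e1 : B ⊓ 𝒞(E) = B ⊓ E := le_antisymm
    (le_inf inf_le_left ((inf_le_inf_right _ (hB.trans inf_le_left)).trans h.cent))
    (inf_le_inf_left _ (abelian_iff.1 h.ab))
  obtain ⟨f, e⟩ := t.ff (B := Md.im ι B) (map_mono (subgroupOf_mono _ hB)) (fun e => hne fun b hb =>
      h.cent ⟨(hB hb).1, (s.eq_one_iff ⟨b, hB' hb⟩).1 (e.le ⟨_, hb, rfl⟩)⟩) (by
    rw [H49.commutator_eq_bot_iff] at hq ⊢
    rw [commutator_le]
    rintro _ ⟨a, rfl⟩ _ ⟨b, hb, rfl⟩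
    have := s.theta b a⁻¹
    rw [map_inv, inv_inv] at this
    rw [commutatorElement_def, mul_assoc, mul_assoc, ← mul_assoc (ι b), this, s.mem_centT hB']
    have h1 := hq (commutator_mem_commutator a.2 hb)
    simpa [commutatorElement_def, mul_assoc] using h1) (by
    rw [s.card_V, s.card_inf_cent hB']
    rw [← s.card_im hB', e1, mul_right_comm] at hoff
    exact Nat.le_of_mul_le_mul_right hoff (card_pos' _))
  refine ⟨s.fg inf_le_right (hc.two.to_le inf_le_left) t f, fun r hr => ?_⟩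
  have h1 := (s.mem_im hB' ⟨r, hr.2⟩).1 (e.ge ⟨_, hr, rfl⟩)
  have h2 : r ∈ (B ⊔ 𝒞(E)) ⊓ (S ⊓ 𝒩(E)) := ⟨h1, hr⟩
  rw [modular_left (.inl (norm_cent hB')) hB, inf_comm, h.inf_cent, sup_comm] at h2
  exact h2

theorem Ess.no_sq {S E : Subgroup G} (hc : Ctx S) (h : Ess S E) {t v : G} (ht : t ∈ S ⊓ 𝒩(E))
    (t1 : t ∉ E) (t2 : t * t = 1) (v2 : v * v = 1)
    (h1 : ∀ u ∈ E, u * u = 1 → u⁻¹ * (t * u * t⁻¹) = 1 ∨ u⁻¹ * (t * u * t⁻¹) = v)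
    (h2 : ∃ c ∈ E, c * c = v) (h3 : ∀ c ∈ E, t * c = c * t → c * c ≠ v) : False := by
  obtain ⟨Γ, _, _, ι, j, s⟩ := exists_md E
  obtain ⟨c, hcE, rfl⟩ := h2
  refine (h.ft hc s).no_sq (t := ι ⟨t, ht.2⟩) (v := j (⟨c, hcE⟩ * ⟨c, hcE⟩)) ⟨_, ht, rfl⟩
    (fun e => t1 (h.cent ⟨ht.1, (s.eq_one_iff _).1 e⟩)) ?_ ?_ ?_ ⟨_, ⟨_, rfl⟩, (map_mul _ _ _).symm⟩ ?_
  · rw [← map_mul, ← map_one ι]; exact congrArg ι (Subtype.ext t2)
  · rw [← map_mul, ← map_one j]; exact congrArg j (Subtype.ext v2)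
  · rintro _ ⟨u, rfl⟩ hu
    rw [s.theta, ← map_one j]
    exact (h1 u u.2 (s.sq hu)).imp (fun e => congrArg j (Subtype.ext e))
      fun e => congrArg j (Subtype.ext e)
  · rintro _ ⟨u, rfl⟩ hu e
    rw [← map_mul] at e
    exact h3 u u.2 ((s.comm_iff _ _).1 hu) (congrArg Subtype.val (s.inj e))

end Cfsg.Agent.AI
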