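import Cfsg.Agent.AI.Off
import Cfsg.Agent.AI.Dih

/-!
The set of involutions attached to the essential subgroups (see notes/AI.md).
-/

set_option autoImplicit false

namespace Cfsg.Agent.AI

open Cfsg Cfsg.Agent.H49 Subgroup

universe u

variable {G : Type u} [Group G] [Finite G]

namespace TwoA

variable {S : Subgroup G}

omit [Finite G] in
theorem theta_mem {E : Subgroup G} {t a : G} (ht : t ∈ 𝒩(E)) (ha : a ∈ E) :
    a⁻¹ * (t * a * t⁻¹) ∈ E :=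
  mul_mem (inv_mem ha) ((mem_normalizer_iff.1 ht a).1 ha)

omit [Finite G] in
theorem mem_S {x : G} (hx : IsX S x) : x ∈ S := by
  obtain ⟨-, -, t, ht, -, a, ha, e⟩ := hx
  have h1 := theta_mem ht ha
  rw [← e] at h1
  exact h1.1

theorem not_cent (hc : Ctx S) {x : G} (h : Ess S (S ⊓ 𝒞[x])) : x ∉ 𝒞(S ⊓ 𝒩(S ⊓ 𝒞[x])) :=
  fun h1 => (hc.lt_norm h.le h.ab).not_ge (le_inf inf_le_left fun r hr => mem_cent1.2 (h1 r hr))

omit [Finite G] in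
theorem in4_symm {x v y : G} (v2 : v * v = 1) (h : In4 x v y) : In4 (x * v) v y := by
  rcases h with h | h | h | h
  · exact Or.inl h
  · exact Or.inr (Or.inl h)
  · exact Or.inr (Or.inr (Or.inr (by rw [h, mul_assoc, v2, mul_one])))
  · exact Or.inr (Or.inr (Or.inl h))

omit [Finite G] in
theorem q2_symm {V H R : Subgroup G} {x v : G} (hV : IsMulCommutative V) (h : Q2 V H R x v)
    (ex : ∃ t ∈ H, Tw t ∧ ∃ a ∈ V, x * v = a⁻¹ * (t * a * t⁻¹)) : Q2 V H R (x * v) v where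
  xV := mul_mem h.xV h.vV
  vV := h.vV
  x2 := by
    have h1 : v * x = x * v := abelian_iff.1 hV h.xV v h.vV
    calc x * v * (x * v) = x * (v * x) * v := by group
      _ = x * x * (v * v) := by rw [h1]; group
      _ = 1 := by rw [h.x2, h.v2, mul_one]
  v2 := h.v2
  v1 := h.v1
  vc := h.vc
  xc := fun h1 => h.xc (by simpa using mul_mem h1 (inv_mem h.vc))
  comm := fun t ht h2 a ha => in4_symm h.v2 (h.comm t ht h2 a ha)
  dec := fun a ha => by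
    obtain ⟨ξ, h1, h2⟩ := h.dec a ha
    exact ⟨ξ, h1, in4_symm h.v2 h2⟩
  act := fun t ht h1 => by
    have h2 : t * v = v * t := h.vc t ht
    calc t * (x * v) * t⁻¹ = t * x * t⁻¹ * (t * v * t⁻¹) := by group
      _ = x * v * v := by rw [h.act t ht h1, h2, mul_inv_cancel_right]
  ex := ex

theorem q2_ex (h : TwoH S) {E : Subgroup G} (hE : NE S E) :
    ∃ x v, Q2 E 𝒩(E) (S ⊓ 𝒩(E)) x v :=
  hE.fg.two (by rw [hE.toEss.inf_cent]; exact h.idx E hE)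

theorem q2_of (h : TwoH S) {E : Subgroup G} (hE : NE S E) {x : G} (hx : x ∉ 𝒞(S ⊓ 𝒩(E)))
    (ex : ∃ t ∈ 𝒩(E), Tw t ∧ ∃ a ∈ E, x = a⁻¹ * (t * a * t⁻¹)) :
    ∃ v, Q2 E 𝒩(E) (S ⊓ 𝒩(E)) x v := by
  obtain ⟨x₀, v, hQ⟩ := q2_ex h hE
  obtain ⟨t, ht, h2, a, ha, e⟩ := id ex
  have h1 := hQ.comm t ht h2 a ha
  rw [← e] at h1
  rcases h1 with h1 | h1 | h1 | h1
  · exact absurd (h1 ▸ one_mem _) hx
  · exact absurd (h1 ▸ hQ.vc) hx
  · exact ⟨v, h1 ▸ hQ⟩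
  · rw [h1] at ex ⊢
    exact ⟨v, q2_symm hE.ab hQ ex⟩

/-- An involution outside an abelian normal subgroup without offenders has at least three
commutators. -/
theorem not_two {E : Subgroup G} (hE : Ess S E) (hn : S ≤ 𝒩(E)) (ho : NoOff S E) {x z : G}
    (xS : x ∈ S) (xE : x ∉ E)
    (hall : ∀ a ∈ E, a⁻¹ * (x * a * x⁻¹) = 1 ∨ a⁻¹ * (x * a * x⁻¹) = z) : False := by
  classical
  have hc : ∀ a ∈ E, ∀ b ∈ E, a * b = b * a := fun a ha b hb => abelian_iff.1 hE.ab hb a ha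
  have h1 : ∀ a : G, a⁻¹ * (x * a * x⁻¹) = 1 → a ∈ 𝒞[x] := fun a e => by
    rw [inv_mul_eq_one] at e
    exact mem_cent1.2 (by rw [eq_mul_inv_iff_mul_eq] at e; exact e)
  obtain ⟨a₀, ha₀, h0⟩ : ∃ a₀ ∈ E, a₀ ∉ 𝒞[x] := by
    by_contra hh
    push Not at hh
    exact xE (hE.cent ⟨xS, fun a ha => mem_cent1.1 (hh a ha)⟩)
  have hz : ∀ a ∈ E, a ∉ 𝒞[x] → x * a * x⁻¹ = a * z := fun a ha h2 => by
    rcases hall a ha with e | e
    · exact absurd (h1 a e) h2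
    · rw [← e]; group
  have zE : z ∈ E := by
    have h2 := theta_mem (hn xS) ha₀
    rwa [hz a₀ ha₀ h0, inv_mul_cancel_left] at h2
  have h3 : ∀ a ∈ E, a ∉ 𝒞[x] → a₀⁻¹ * a ∈ E ⊓ 𝒞[x] := fun a ha h2 => by
    have h4 : a₀⁻¹ * a ∈ E := mul_mem (inv_mem ha₀) ha
    refine ⟨h4, mem_cent1.2 ?_⟩
    have h5 : x * (a₀⁻¹ * a) * x⁻¹ = a₀⁻¹ * a := by
      calc x * (a₀⁻¹ * a) * x⁻¹ = (x * a₀ * x⁻¹)⁻¹ * (x * a * x⁻¹) := by group
        _ = z⁻¹ * (a₀⁻¹ * a * z) := by rw [hz a ha h2, hz a₀ ha₀ h0]; group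
        _ = a₀⁻¹ * a := by rw [hc _ h4 z zE]; group
    exact (mul_inv_eq_iff_eq_mul.1 h5).symm
  have hB : IsMulCommutative ↥((E ⊓ 𝒞[x]) ⊔ zpowers x) := by
    refine abelian_sup (abelian_of_le hE.ab inf_le_left) inferInstance ?_
    intro a ha b hb
    obtain ⟨j, rfl⟩ := hb
    exact (Commute.zpow_left (show Commute x a from (mem_cent1.1 ha.2).symm) j).eq
  have hx : x ∈ (E ⊓ 𝒞[x]) ⊔ zpowers x := mem_sup_right (mem_zpowers x)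
  let f : E → ↥((E ⊓ 𝒞[x]) ⊔ zpowers x) := fun a =>
    if h2 : (a : G) ∈ 𝒞[x] then ⟨a, mem_sup_left ⟨a.2, h2⟩⟩
    else ⟨a₀⁻¹ * a * x, mul_mem (mem_sup_left (h3 a a.2 h2)) hx⟩
  have hf : Function.Injective f := by
    have key : ∀ a b : E, (a : G) ≠ a₀⁻¹ * b * x := fun a b e => xE (by
      have h2 : x = (a₀⁻¹ * b)⁻¹ * a := by rw [e]; group
      rw [h2]
      exact mul_mem (inv_mem (mul_mem (inv_mem ha₀) b.2)) a.2)
    intro a b e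
    have e' := congrArg Subtype.val e
    by_cases h4 : (a : G) ∈ 𝒞[x] <;> by_cases h5 : (b : G) ∈ 𝒞[x] <;>
      simp only [f, h4, h5, dif_pos, dif_neg, not_false_eq_true] at e'
    · exact Subtype.ext e'
    · exact absurd e' (key a b)
    · exact absurd e'.symm (key b a)
    · exact Subtype.ext (mul_left_cancel (mul_right_cancel e'))
  exact xE (ho _ (sup_le (inf_le_left.trans hE.le) (zpowers_le.2 xS)) hB
    (Nat.card_le_card_of_injective f hf) hx)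

end TwoA

namespace TwoH

open TwoA

variable {S : Subgroup G}

theorem q2 (h : TwoH S) {x : G} (hx : IsX S x) :
    ∃ v, Q2 (S ⊓ 𝒞[x]) 𝒩(S ⊓ 𝒞[x]) (S ⊓ 𝒩(S ⊓ 𝒞[x])) x v ∧ Pa S {y | IsX S y} x v := by
  have hE : NE S (S ⊓ 𝒞[x]) := hx.1.ne h.toCtx hx.2.1
  obtain ⟨v, hQ⟩ := q2_of h hE (not_cent h.toCtx hx.1) hx.2.2
  refine ⟨v, hQ, hQ.v1, fun y hy e => ?_, fun c hc e e' => ?_⟩
  · have hy : IsX S y := hy
    have h1 : y ∈ S ⊓ 𝒞[x] := ⟨mem_S hy, mem_cent1.2 e.symm⟩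
    have h2 : S ⊓ 𝒞[y] = S ⊓ 𝒞[x] :=
      hx.1.eq_of_le (le_inf inf_le_left fun a ha =>
        mem_cent1.2 (abelian_iff.1 hx.1.ab h1 a ha)) inf_le_left hy.1.ab
    have h3 := not_cent h.toCtx hy.1
    have h4 := hy.2.2
    rw [h2] at h3 h4
    obtain ⟨t, ht, h5, a, ha, e1⟩ := h4
    have h6 := hQ.comm t ht h5 a ha
    rw [← e1] at h6
    rcases h6 with h6 | h6 | h6 | h6
    · exact absurd (h6 ▸ one_mem _) h3
    · exact absurd (h6 ▸ hQ.vc) h3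
    · exact Or.inl h6
    · exact Or.inr h6
  · obtain ⟨t, ht, h1⟩ := SetLike.exists_of_lt (h.toCtx.lt_norm hx.1.le hx.1.ab)
    have h2 : t ∉ 𝒞(S ⊓ 𝒞[x]) := fun h3 => h1 ((hx.1.mem_cent_iff ht.1).1 h3)
    refine hE.fg.nsq x hQ.xV hQ.xc t ht h2 c ⟨hc, mem_cent1.2 e⟩ ?_
    rw [hQ.act t ht h2, e', inv_mul_cancel_left]

theorem exists_X (h : TwoH S) {E : Subgroup G} (hE : NE S E) : ∃ x, IsX S x ∧ E = S ⊓ 𝒞[x] := by
  obtain ⟨x, v, hQ⟩ := q2_ex h hE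
  have h1 := hE.cent_eq h.toCtx hQ.xV hQ.xc
  refine ⟨x, ?_, h1.symm⟩
  rw [IsX, h1]
  exact ⟨hE.toEss, hE.nnor, hQ.ex⟩

theorem dh (h : TwoH S) : ∃ x k n, Dh S {y | IsX S y} x k n := by
  refine exists_dh h.toCtx.two (fun x hx => ⟨mem_S hx, ?_⟩)
    (fun x hx s hs => IsX.conj hx (le_normalizer hs)) (fun x hx => ?_) ?_
  · obtain ⟨v, hQ, -⟩ := h.q2 hx
    exact hQ.x2
  · obtain ⟨v, -, hP⟩ := h.q2 hx
    exact ⟨v, hP⟩
  · obtain ⟨E, hE⟩ := h.ex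
    obtain ⟨x, hx, rfl⟩ := h.exists_X hE
    obtain ⟨s, hs, h1⟩ := SetLike.not_le_iff_exists.1 hE.nnor
    refine ⟨x, hx, s * x * s⁻¹, IsX.conj hx (le_normalizer hs), fun e => h1 ?_⟩
    exact hE.mem_norm h.toCtx ⟨mem_S hx, self_mem_cent1 x⟩ (not_cent h.toCtx hx.1) hs
      ⟨S.mul_mem (S.mul_mem hs (mem_S hx)) (S.inv_mem hs), mem_cent1.2 e.symm⟩

/-- All essential subgroups are centralizers of reflections. -/
theorem ess (h : TwoH S) {E : Subgroup G} (hE : Ess S E) : ∃ x, IsX S x ∧ E = S ⊓ 𝒞[x] := by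
  by_cases hn : S ≤ 𝒩(E)
  swap
  · exact h.exists_X (hE.ne h.toCtx hn)
  exfalso
  obtain ⟨x, k, n, hD⟩ := h.dh
  have hx : IsX S x := (hD.mem x).2 ⟨0, by simp⟩
  have xE : x ∉ E := fun h1 => by
    have h2 : S ⊓ 𝒞[x] = E :=
      hE.eq_of_le (le_inf hE.le fun a ha => mem_cent1.2 (abelian_iff.1 hE.ab h1 a ha))
        inf_le_left hx.1.ab
    exact hx.2.1 (by rw [h2]; exact hn)
  have hθ : ∀ a ∈ E, ∃ j : ℤ, a⁻¹ * (x * a * x⁻¹) = k ^ j := fun a ha => by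
    obtain ⟨j, e⟩ := (hD.mem _).1 (IsX.conj hx (le_normalizer (inv_mem (hE.le ha))))
    refine ⟨-j, ?_⟩
    calc a⁻¹ * (x * a * x⁻¹) = a⁻¹ * x * a⁻¹⁻¹ * x⁻¹ := by group
      _ = (x * k * x⁻¹) ^ j := by rw [e, conj_zpow]
      _ = k ^ (-j) := by rw [hD.inv, inv_zpow']
  by_cases hall : ∀ a ∈ E, a⁻¹ * (x * a * x⁻¹) = 1 ∨ a⁻¹ * (x * a * x⁻¹) = k ^ 2 ^ (n + 1)
  · exact not_two hE hn (h.nooff E hE hn) hD.xS xE hall
  push Not at hall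
  obtain ⟨a, ha, h1, h2⟩ := hall
  obtain ⟨j, e⟩ := hθ a ha
  have h3 := theta_mem (hn hD.xS) ha
  rw [e] at h1 h2 h3
  obtain ⟨i, hi⟩ := hD.exists_sqrt h1 h2
  obtain ⟨v, -, hP⟩ := h.q2 hx
  have hv := hD.pa x hx v hP
  refine hE.no_sq h.toCtx (t := x) (v := k ^ 2 ^ (n + 1)) ⟨hD.xS, hn hD.xS⟩ xE hD.x2 ?_
    (fun u hu u2 => ?_) ⟨_, pow_mem h3 i, hi⟩ (fun c hc e1 => hv ▸ hP.nsq c (hE.le hc) e1.symm)
  · rw [← pow_add, ← two_mul, ← pow_succ', ← hD.ord, pow_orderOf_eq_one]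
  · obtain ⟨l, el⟩ := hθ u hu
    have h4 : x * u * x⁻¹ * u⁻¹ = u⁻¹ * (x * u * x⁻¹) :=
      abelian_iff.1 hE.ab (inv_mem hu) _ ((mem_normalizer_iff.1 (hn hD.xS) u).1 hu)
    have h5 : k ^ l * k ^ l = 1 := by
      calc k ^ l * k ^ l = u⁻¹ * (x * u * x⁻¹ * u⁻¹) * (x * u * x⁻¹) := by rw [← el]; group
        _ = (u * u)⁻¹ * (x * (u * u) * x⁻¹) := by rw [h4]; group
        _ = 1 := by rw [u2]; group
    rw [el]
    exact hD.eq_of_sq h5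

end TwoH

end Cfsg.Agent.AI
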